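import Cfsg.Agent.H518.PiB.Co2Sx
import Cfsg.Agent.CoOneType.CentOctad
import Cfsg.Agent.LeechMat.Core

/-!
# Every involution of `Co2` inverts an element of order three (helper518, S3876)
-/

set_option autoImplicit false

namespace Cfsg.Agent.H518.PiB

open Cfsg Finset Cfsg.Agent.SporadicA.Co0Mono Cfsg.Agent.SporadicStructure.Co0Base
open Cfsg.Agent.SporadicA.Xi Cfsg.Agent.CoOneType.SignFacts
open Cfsg.Agent.SporadicStructure Cfsg.Agent.SporadicStructure.LeechBase
open Cfsg.Agent.SporadicA.GolayBase
open Cfsg.Agent.SporadicStructure.MinShapes (vec)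
open Cfsg.Agent.SporadicA.Co1Simple (allOne allOne_mem_center)
open XiThree (Sm)

/-- `t` inverts an element of order three fixing `v` -/
def I3v (t : Co0) (v : leechLattice) : Prop :=
  ∃ g : Co0, g * g * g = 1 ∧ g ≠ 1 ∧ t * g * t⁻¹ = g⁻¹ ∧ g • v = v

theorem I3v.conj {t : Co0} {v : leechLattice} (h : Co0) (ht : I3v (h * t * h⁻¹) (h • v)) : I3v t v := by
  obtain ⟨g, g1, g2, g3, g4⟩ := ht
  refine ⟨h⁻¹ * g * h, ?_, ?_, ?_, ?_⟩
  · calc h⁻¹ * g * h * (h⁻¹ * g * h) * (h⁻¹ * g * h) = h⁻¹ * (g * g * g) * h := by group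
      _ = 1 := by rw [g1]; group
  · intro h1
    apply g2
    calc g = h * (h⁻¹ * g * h) * h⁻¹ := by group
      _ = 1 := by rw [h1]; group
  · calc t * (h⁻¹ * g * h) * t⁻¹ = h⁻¹ * (h * t * h⁻¹ * g * (h * t * h⁻¹)⁻¹) * h := by group
      _ = (h⁻¹ * g * h)⁻¹ := by rw [g3]; group
  · rw [mul_smul, mul_smul, g4, inv_smul_smul]

theorem I3v.comm {t : Co0} {v : leechLattice} (h : Co0) (hc : h * t = t * h) (ht : I3v t (h • v)) : I3v t v := by
  refine I3v.conj h ?_
  rwa [hc, mul_inv_cancel_right]

/-- the criterion -/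
theorem i3v_of_sextet {c : golayCode} {T : GolayPt → Fin 6} (hT : IsSextet T)
    (ho : (fib T 0 ∩ sup c).card % 2 = 1) {v : leechLattice} (h0 : ∀ i ∈ sup c, (v : GolayPt → ℤ) i = 0)
    (hs : ∀ k, Sm T v k = 0) : I3v (signCo0 c) v := by
  classical
  obtain ⟨m, η, hm⟩ := XiThree.exists_mi hT (c := c) (fun k => by rw [parity hT c k]; exact ho)
  refine ⟨XiThree.g hT c, XiThree.g_cube hT hm, XiThree.g_ne_one hT hm, XiThree.sign_g hT, ?_⟩
  refine XiThree.g_fix hT hm (fun k => ?_) hs
  by_cases hk : m k ∈ sup c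
  · exact h0 _ hk
  · have h1 := hm.sg (m k)
    rw [hm.col k, if_pos rfl, (notMem_sup c _).1 hk, sgn_zero] at h1
    have h2 : ∀ j ∈ fib T k, j ≠ m k → (v : GolayPt → ℤ) j = 0 := by
      intro j hj hjm
      apply h0
      rw [mem_sup]
      have h3 := hm.sg j
      rw [mem_fib.1 hj, if_neg hjm] at h3
      rcases zmod2_cases ((c : GolayPt → ZMod 2) j) with h4 | h4
      · rw [h4, sgn_zero] at h3
        omega
      · exact h4
    have h3 := hs k
    rw [Sm, XiThree.sum_exc T k (m k) (hm.col k) _ (fun _ => 0) (fun j hj hjm => h2 j (mem_fib.2 hj) hjm),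
      sum_const_zero] at h3
    omega

/-- two coordinates -/
theorem i3v_pair {c : golayCode} (hc0 : wt c ≠ 0) (hc1 : wt c ≠ 24) {v : leechLattice} {p q : GolayPt} (hpq : p ≠ q)
    (hp : p ∉ sup c) (hq : q ∉ sup c) (h0 : ∀ j, j ≠ p → j ≠ q → (v : GolayPt → ℤ) j = 0)
    (hsum : (v : GolayPt → ℤ) p + (v : GolayPt → ℤ) q = 0) : I3v (signCo0 c) v := by
  classical
  have hw := wt_cases c
  have hwc : (sup c).card = wt c := rfl
  obtain ⟨r, hr⟩ : (sup c).Nonempty := by
    rw [← card_pos]
    omega
  have hrp : r ≠ p := fun h => hp (h ▸ hr)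
  have hrq : r ≠ q := fun h => hq (h ▸ hr)
  obtain ⟨s, hs⟩ : ((sup c)ᶜ \ {p, q}).Nonempty := by
    rw [← card_pos]
    have h1 := le_card_sdiff ({p, q} : Finset GolayPt) (sup c)ᶜ
    rw [card_pair hpq, card_compl] at h1
    have h2 : Fintype.card GolayPt = 24 := by decide
    omega
  rw [mem_sdiff, mem_compl, mem_insert, mem_singleton, not_or] at hs
  have hrs : r ≠ s := fun h => hs.1 (h ▸ hr)
  have hS : ({p, q, r, s} : Finset GolayPt).card = 4 := by
    rw [card_insert_of_notMem, card_insert_of_notMem, card_pair hrs]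
    · rw [mem_insert, mem_singleton]
      rintro (h | h)
      · exact hrq h.symm
      · exact hs.2.2 h.symm
    · rw [mem_insert, mem_insert, mem_singleton]
      rintro (h | h | h)
      · exact hpq h
      · exact hrp h.symm
      · exact hs.2.1 h.symm
  obtain ⟨T, hT, hT0⟩ := Cfsg.Agent.SporadicA.XiSextet.exists_isSextet Cfsg.Agent.S0363.result _ hS
  refine i3v_of_sextet hT ?_ ?_ fun k => ?_
  · have h1 : fib T 0 ∩ sup c = {r} := by
      rw [hT0]
      ext j
      simp only [mem_inter, mem_insert, mem_singleton]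
      constructor
      · rintro ⟨rfl | rfl | rfl | rfl, h⟩
        · exact absurd h hp
        · exact absurd h hq
        · rfl
        · exact absurd h hs.1
      · rintro rfl
        exact ⟨Or.inr (Or.inr (Or.inl rfl)), hr⟩
    rw [h1, card_singleton]
  · intro i hi
    exact h0 i (fun h => hp (h ▸ hi)) fun h => hq (h ▸ hi)
  · by_cases hk : k = 0
    · subst hk
      show ∑ j ∈ fib T 0, (v : GolayPt → ℤ) j = 0
      rw [hT0, sum_insert, sum_insert, sum_insert, sum_singleton, h0 r hrp hrq, h0 s hs.2.1 hs.2.2]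
      · linarith
      · rw [mem_singleton]; exact hrs
      · rw [mem_insert, mem_singleton]
        rintro (h | h)
        · exact hrq h.symm
        · exact hs.2.2 h.symm
      · rw [mem_insert, mem_insert, mem_singleton]
        rintro (h | h | h)
        · exact hpq h
        · exact hrp h.symm
        · exact hs.2.1 h.symm
    · refine sum_eq_zero fun j hj => h0 j ?_ ?_
      · rintro rfl
        apply hk
        rw [← mem_fib.1 hj]
        exact (mem_fib.1 (show j ∈ fib T 0 by rw [hT0]; simp)).symm ▸ rfl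
      · rintro rfl
        apply hk
        rw [← mem_fib.1 hj]
        exact (mem_fib.1 (show j ∈ fib T 0 by rw [hT0]; simp)).symm ▸ rfl

theorem sign_comm (c d : golayCode) : signCo0 d * signCo0 c = signCo0 c * signCo0 d := by
  rw [← signCo0_add, ← signCo0_add, add_comm]

/-- vectors `(±4, ±4)` -/
theorem i3v_four {c : golayCode} (hc0 : wt c ≠ 0) (hc1 : wt c ≠ 24) {v : leechLattice} {T S : Finset GolayPt}
    (hT : T.card = 2) (hv : (v : GolayPt → ℤ) = vec 4 T S) (h0 : ∀ i ∈ sup c, (v : GolayPt → ℤ) i = 0) :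
    I3v (signCo0 c) v := by
  classical
  obtain ⟨p, q, hpq, rfl⟩ := card_eq_two.1 hT
  have hval : ∀ j, (v : GolayPt → ℤ) j = if j ∈ ({p, q} : Finset GolayPt) then (if j ∈ S then -4 else 4) else 0 := by
    intro j
    rw [hv]
    rfl
  have hoff : ∀ j, j ≠ p → j ≠ q → (v : GolayPt → ℤ) j = 0 := by
    intro j h1 h2
    rw [hval, if_neg]
    rw [mem_insert, mem_singleton, not_or]
    exact ⟨h1, h2⟩
  have hvp : (v : GolayPt → ℤ) p = if p ∈ S then -4 else 4 := by rw [hval, if_pos (by simp)]
  have hvq : (v : GolayPt → ℤ) q = if q ∈ S then -4 else 4 := by rw [hval, if_pos (by simp)]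
  have hp : p ∉ sup c := by
    intro h
    have h1 := h0 p h
    rw [hvp] at h1
    split_ifs at h1 <;> omega
  have hq : q ∉ sup c := by
    intro h
    have h1 := h0 q h
    rw [hvq] at h1
    split_ifs at h1 <;> omega
  by_cases hs : (v : GolayPt → ℤ) p + (v : GolayPt → ℤ) q = 0
  · exact i3v_pair hc0 hc1 hpq hp hq hoff hs
  · obtain ⟨d, hdp, hdq⟩ := exists_sep hpq
    refine I3v.comm (signCo0 d) (sign_comm c d) (i3v_pair hc0 hc1 hpq hp hq ?_ ?_)
    · intro j h1 h2
      rw [signCo0_smul, signMap_apply, hoff j h1 h2, mul_zero]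
    · rw [signCo0_smul, signMap_apply, signMap_apply, hdp, hdq, sgn_one, sgn_zero]
      rw [hvp, hvq] at hs ⊢
      split_ifs at hs ⊢ <;> omega

/-- an octad vector and a disjoint octad word -/
theorem i3v_eight {c : golayCode} (hc : wt c = 8) {v : leechLattice} {O S : Finset GolayPt} (hO : O ∈ octads)
    (hSO : S ⊆ O) (hS : Even S.card) (hv : (v : GolayPt → ℤ) = vec 2 O S) (hdis : Disjoint (sup c) O) :
    I3v (signCo0 c) v := by
  classical
  obtain ⟨o, ho⟩ := exists_word hO
  have hO8 := octad_card hO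
  have hwc : (sup c).card = 8 := hc
  obtain ⟨a, b, ha, hb, hab⟩ := one_lt_card_iff.1 (show 1 < O.card by omega)
  obtain ⟨i, hi⟩ : (sup c).Nonempty := by rw [← card_pos]; omega
  obtain ⟨x, hx⟩ : ((sup c ∪ O)ᶜ).Nonempty := by
    rw [← card_pos, card_compl]
    have h1 := card_union_le (sup c) O
    have h2 : Fintype.card GolayPt = 24 := by decide
    omega
  rw [mem_compl, mem_union, not_or] at hx
  have hac : a ∉ sup c := fun h => (disjoint_left.1 hdis h) ha
  have hbc : b ∉ sup c := fun h => (disjoint_left.1 hdis h) hb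
  have hiO : i ∉ O := disjoint_left.1 hdis hi
  have hix : i ≠ x := fun h => hx.1 (h ▸ hi)
  have hS4 : ({a, b, i, x} : Finset GolayPt).card = 4 := by
    rw [card_insert_of_notMem, card_insert_of_notMem, card_pair hix]
    · rw [mem_insert, mem_singleton]
      rintro (h | h)
      · exact hbc (h ▸ hi)
      · exact hx.2 (h ▸ hb)
    · rw [mem_insert, mem_insert, mem_singleton]
      rintro (h | h | h)
      · exact hab h
      · exact hac (h ▸ hi)
      · exact hx.2 (h ▸ ha)
  obtain ⟨T, hT, hT0⟩ := Cfsg.Agent.SporadicA.XiSextet.exists_isSextet Cfsg.Agent.S0363.result _ hS4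
  have hc0 : fib T 0 ∩ sup c = {i} := by
    rw [hT0]
    ext j
    simp only [mem_inter, mem_insert, mem_singleton]
    constructor
    · rintro ⟨rfl | rfl | rfl | rfl, h⟩
      · exact absurd h hac
      · exact absurd h hbc
      · rfl
      · exact absurd h hx.1
    · rintro rfl
      exact ⟨Or.inr (Or.inr (Or.inl rfl)), hi⟩
  have hO0 : fib T 0 ∩ O = {a, b} := by
    rw [hT0]
    ext j
    simp only [mem_inter, mem_insert, mem_singleton]
    constructor
    · rintro ⟨rfl | rfl | rfl | rfl, h⟩
      · exact Or.inl rfl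
      · exact Or.inr rfl
      · exact absurd h hiO
      · exact absurd h hx.2
    · rintro (rfl | rfl)
      · exact ⟨Or.inl rfl, ha⟩
      · exact ⟨Or.inr (Or.inl rfl), hb⟩
  have hcard : ∀ k, (fib T k ∩ O).card = 0 ∨ (fib T k ∩ O).card = 2 := by
    intro k
    have h1 := parity hT o k
    rw [ho, hO0, card_pair hab] at h1
    have h2 := parity hT c k
    rw [hc0, card_singleton] at h2
    have h3 : (fib T k ∩ O).card + (fib T k ∩ sup c).card ≤ 4 := by
      rw [← hT.card k, ← card_union_of_disjoint]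
      · exact card_le_card (union_subset inter_subset_left inter_subset_left)
      · exact (hdis.symm.mono inter_subset_right inter_subset_right)
    omega
  -- the leaders
  have hl : ∀ k, ∃ l : GolayPt, (fib T k ∩ O).card = 2 → l ∈ fib T k ∩ O := by
    intro k
    by_cases h : (fib T k ∩ O).card = 2
    · obtain ⟨l, hl⟩ : (fib T k ∩ O).Nonempty := by rw [← card_pos]; omega
      exact ⟨l, fun _ => hl⟩
    · exact ⟨a, fun h' => absurd h' h⟩
  choose l hl using hl
  set L := O.filter fun j => j = l (T j) with hL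
  have hLk : ∀ k, (fib T k ∩ L).card * 2 = (fib T k ∩ O).card := by
    intro k
    rcases hcard k with h | h
    · have h1 : fib T k ∩ O = ∅ := card_eq_zero.1 h
      have h2 : fib T k ∩ L = ∅ := by
        rw [← subset_empty, ← h1]
        exact inter_subset_inter_left (filter_subset _ _)
      rw [h1, h2, card_empty]
    · have h1 : fib T k ∩ L = {l k} := by
        ext j
        rw [mem_inter, hL, mem_filter, mem_fib, mem_singleton]
        constructor
        · rintro ⟨h2, -, h3⟩
          rw [h3, h2]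
        · rintro rfl
          have h2 := mem_inter.1 (hl k h)
          have h3 := mem_fib.1 h2.1
          exact ⟨h3, h2.2, by rw [h3]⟩
      rw [h1, h, card_singleton]
  have hL4 : L.card = 4 := by
    have h1 := card_eq_sum T O
    have h2 := card_eq_sum T L
    have h3 : L.card * 2 = O.card := by
      rw [h1, h2, sum_mul]
      exact sum_congr rfl fun k _ => hLk k
    omega
  obtain ⟨d, hd⟩ := exists_signMap hO hSO (filter_subset _ _ : L ⊆ O) hS (by rw [hL4]; decide)
  refine I3v.comm (signCo0 d) (sign_comm c d) ?_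
  have hval : ∀ j, ((signCo0 d • v : leechLattice) : GolayPt → ℤ) j =
      if j ∈ O then (if j ∈ L then -2 else 2) else 0 := by
    intro j
    rw [signCo0_smul, hv, hd]
    rfl
  refine i3v_of_sextet hT (by rw [hc0, card_singleton]) ?_ fun k => ?_
  · intro j hj
    rw [hval, if_neg (disjoint_left.1 hdis hj)]
  · show ∑ j ∈ fib T k, _ = (0 : ℤ)
    rw [sum_congr rfl fun j _ => hval j]
    have h1 : ∑ j ∈ fib T k, (if j ∈ O then (if j ∈ L then (-2 : ℤ) else 2) else 0) =
        2 * ((fib T k ∩ O).card : ℤ) - 4 * ((fib T k ∩ L).card : ℤ) := by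
      have h2 : ∀ j, (if j ∈ O then (if j ∈ L then (-2 : ℤ) else 2) else 0) =
          2 * (if j ∈ O then 1 else 0) - 4 * (if j ∈ L then 1 else 0) := by
        intro j
        by_cases h3 : j ∈ O
        · by_cases h4 : j ∈ L <;> simp [h3, h4]
        · have h4 : j ∉ L := fun h => h3 (filter_subset _ _ h)
          simp [h3, h4]
      rw [sum_congr rfl fun j _ => h2 j, sum_sub_distrib, ← mul_sum, ← mul_sum, sum_ite_mem, sum_ite_mem, sum_const,
        sum_const]
      simp
    rw [h1]
    have h2 := hLk k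
    have h3 : ((fib T k ∩ L).card : ℤ) * 2 = ((fib T k ∩ O).card : ℤ) := by exact_mod_cast h2
    linarith

/-- an octad vector and the complement of the octad -/
theorem i3v_sixteen {c : golayCode} {v : leechLattice} {O S : Finset GolayPt} (hO : O ∈ octads)
    (hSO : S ⊆ O) (hS : Even S.card) (hv : (v : GolayPt → ℤ) = vec 2 O S) (hc : sup c = Oᶜ) :
    I3v (signCo0 c) v := by
  classical
  obtain ⟨o, ho⟩ := exists_word hO
  have hO8 := octad_card hO
  have hwo : wt o = 8 := by
    show (sup o).card = 8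
    rw [ho, hO8]
  obtain ⟨a, b, ha, hb, hab⟩ := one_lt_card_iff.1 (show 1 < O.card by omega)
  have hR : 3 ≤ (O \ {a, b}).card := by
    have h1 := le_card_sdiff ({a, b} : Finset GolayPt) O
    rw [card_pair hab] at h1
    omega
  obtain ⟨R, hRO, hR3⟩ := exists_subset_card_eq hR
  have haR : a ∉ R := by
    intro h
    have h1 := (mem_sdiff.1 (hRO h)).2
    simp at h1
  have hbR : b ∉ R := by
    intro h
    have h1 := (mem_sdiff.1 (hRO h)).2
    simp at h1
  have hA : (insert a R).card = 4 := by rw [card_insert_of_notMem haR, hR3]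
  have hAO : insert a R ⊆ sup o := by
    rw [ho]
    intro j hj
    rcases mem_insert.1 hj with rfl | hj
    · exact ha
    · exact (mem_sdiff.1 (hRO hj)).1
  obtain ⟨T, hT, hT0, hTo, k, hk0, hk⟩ := Cfsg.Agent.CoOneType.CentOctad.exists_sextet hwo hA hAO
  rw [ho] at hk
  -- the signs
  have hL : ({a, b} : Finset GolayPt) ⊆ O := by
    intro j hj
    rw [mem_insert, mem_singleton] at hj
    rcases hj with rfl | rfl
    · exact ha
    · exact hb
  obtain ⟨d, hd⟩ := exists_signMap hO hSO hL hS (by rw [card_pair hab]; decide)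
  refine I3v.comm (signCo0 d) (sign_comm c d) ?_
  have hval : ∀ j, ((signCo0 d • v : leechLattice) : GolayPt → ℤ) j =
      if j ∈ O then (if j ∈ ({a, b} : Finset GolayPt) then -2 else 2) else 0 := by
    intro j
    rw [signCo0_smul, hv, hd]
    rfl
  -- the sextet map
  have hco : c = o + allOne := by
    apply Subtype.ext
    funext j
    show (c : GolayPt → ZMod 2) j = (o : GolayPt → ZMod 2) j + 1
    by_cases hj : j ∈ O
    · have h1 : j ∉ sup c := by rw [hc, mem_compl]; exact fun h => h hj
      have h2 : j ∈ sup o := by rw [ho]; exact hj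
      rw [(notMem_sup c j).1 h1, (mem_sup o j).1 h2]
      decide
    · have h1 : j ∈ sup c := by rw [hc, mem_compl]; exact hj
      have h2 : j ∉ sup o := by rw [ho]; exact hj
      rw [(mem_sup c j).1 h1, (notMem_sup o j).1 h2]
      decide
  have hcomm : xiCo0 T hT * signCo0 c = signCo0 c * xiCo0 T hT := by
    have h1 : xiCo0 T hT * signCo0 o = signCo0 o * xiCo0 T hT :=
      (Cfsg.Agent.CoOneType.CentOctad.mem_C0).1 (Cfsg.Agent.CoOneType.CentOctad.xi_mem hT hTo)
    have h2 := sign_allOne_comm (xiCo0 T hT)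
    rw [hco, signCo0_add, ← mul_assoc, h1, mul_assoc, h2, mul_assoc]
  refine I3v.comm (xiCo0 T hT) hcomm ?_
  set u := signCo0 d • v with hu
  have hwc : wt c = 16 := by
    show (sup c).card = 16
    rw [hc, card_compl, hO8]
    decide
  -- sums
  have hfibO : ∀ j, T j = 0 ∨ T j = k ↔ j ∈ O := by
    intro j
    rw [← ho]
    constructor
    · rintro (h | h)
      · exact hAO (by rw [← hT0]; exact mem_fib.2 h)
      · have h1 : j ∈ fib T k := mem_fib.2 h
        rw [hk] at h1
        rw [ho]
        exact (mem_sdiff.1 h1).1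
    · intro h
      rw [ho] at h
      by_cases h1 : j ∈ insert a R
      · left
        exact mem_fib.1 (by rw [hT0]; exact h1)
      · right
        exact mem_fib.1 (by rw [hk]; exact mem_sdiff.2 ⟨h, h1⟩)
  have ha0 : T a = 0 := mem_fib.1 (by rw [hT0]; exact mem_insert_self _ _)
  have hbk : T b = k := mem_fib.1 (by
    rw [hk]
    refine mem_sdiff.2 ⟨hb, ?_⟩
    rw [mem_insert]
    rintro (h | h)
    · exact hab h.symm
    · exact hbR h)
  have hsm0 : Sm T u 0 = 4 := by
    show ∑ j ∈ fib T 0, (u : GolayPt → ℤ) j = 4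
    rw [XiThree.sum_exc T 0 a ha0 _ (fun _ => 2)]
    · rw [hval a, if_pos ha, if_pos (by simp), sum_const, hT.card 0]
      norm_num
    · intro j hj hja
      have h1 : j ∈ O := (hfibO j).1 (Or.inl hj)
      have h2 : j ≠ b := by
        rintro rfl
        exact hk0 (hbk.symm.trans hj)
      rw [hval j, if_pos h1, if_neg]
      rw [mem_insert, mem_singleton, not_or]
      exact ⟨hja, h2⟩
  have hsmk : Sm T u k = 4 := by
    show ∑ j ∈ fib T k, (u : GolayPt → ℤ) j = 4
    rw [XiThree.sum_exc T k b hbk _ (fun _ => 2)]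
    · rw [hval b, if_pos hb, if_pos (by simp), sum_const, hT.card k]
      norm_num
    · intro j hj hjb
      have h1 : j ∈ O := (hfibO j).1 (Or.inr hj)
      have h2 : j ≠ a := by
        rintro rfl
        exact hk0 (hj.symm.trans ha0)
      rw [hval j, if_pos h1, if_neg]
      rw [mem_insert, mem_singleton, not_or]
      exact ⟨h2, hjb⟩
  have hxi : ∀ j, 2 * ((xiCo0 T hT • u : leechLattice) : GolayPt → ℤ) j =
      (if T j = 0 then -1 else 1) * (Sm T u (T j) - 2 * (u : GolayPt → ℤ) j) := fun j => two_xiCo0_smul T hT u j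
  refine i3v_pair (by omega) (by omega) hab ?_ ?_ (fun j hja hjb => ?_) ?_
  · rw [hc, mem_compl]; exact fun h => h ha
  · rw [hc, mem_compl]; exact fun h => h hb
  · have h1 := hxi j
    by_cases h2 : j ∈ O
    · have h3 : (u : GolayPt → ℤ) j = 2 := by
        rw [hval j, if_pos h2, if_neg]
        rw [mem_insert, mem_singleton, not_or]
        exact ⟨hja, hjb⟩
      rcases (hfibO j).2 h2 with h4 | h4
      · rw [h4, hsm0, h3] at h1
        simp at h1
        exact h1
      · rw [h4, hsmk, h3] at h1
        simp at h1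
        exact h1
    · have h3 : (u : GolayPt → ℤ) j = 0 := by rw [hval j, if_neg h2]
      have h4 : Sm T u (T j) = 0 := by
        refine sum_eq_zero fun i hi => ?_
        rw [hval i, if_neg]
        intro h5
        apply h2
        rw [← hfibO, ← mem_fib.1 hi, hfibO]
        exact h5
      rw [h3, h4] at h1
      simp at h1
      exact h1
  · have h1 := hxi a
    have h2 := hxi b
    have h3 : (u : GolayPt → ℤ) a = -2 := by rw [hval a, if_pos ha, if_pos (by simp)]
    have h4 : (u : GolayPt → ℤ) b = -2 := by rw [hval b, if_pos hb, if_pos (by simp)]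
    rw [ha0, hsm0, h3, if_pos rfl] at h1
    rw [hbk, hsmk, h4, if_neg hk0] at h2
    linarith

/-- **involutions of the stabiliser of a minimal vector** -/
theorem i3v_min {t : Co0} (ht : t * t = 1) (ht1 : t ≠ 1) {v : leechLattice} (hv : sqNorm (v : GolayPt → ℤ) = 32)
    (htv : t • v = v) : I3v t v := by
  obtain ⟨g, c, hg⟩ := Cfsg.Agent.CoOneType.InvMain.conj_sign_of_sq_one t ht
  refine I3v.conj g ?_
  rw [hg]
  have hn : sqNorm ((g • v : leechLattice) : GolayPt → ℤ) = 32 :=
    (Cfsg.Agent.LeechMat.Core.co0_sqNorm g v).trans hv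
  have hfix : signCo0 c • (g • v) = g • v := by
    rw [← hg, mul_smul, mul_smul, inv_smul_smul, htv]
  have h0 := (sign_fixed_iff c _).1 hfix
  set w := g • v with hw
  have hc0 : wt c ≠ 0 := by
    intro hw0
    apply ht1
    have h3 : c = 0 := by
      apply Cfsg.Agent.CoOneType.InvMain.word_ext
      have h4 : sup c = ∅ := card_eq_zero.1 hw0
      have h5 : sup 0 = ∅ := by
        rw [eq_empty_iff_forall_notMem]
        intro i
        rw [notMem_sup]
        rfl
      exact h4.trans h5.symm
    rw [h3, signCo0_zero, mul_inv_eq_one, mul_eq_left] at hg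
    exact hg
  have hc1 : wt c ≠ 24 := by
    intro hw24
    have h4 : sup c = univ := by
      rw [← card_eq_iff_eq_univ]
      exact hw24.trans (by decide)
    have h5 : (w : GolayPt → ℤ) = 0 := by
      funext i
      exact h0 i (by rw [h4]; exact mem_univ i)
    rw [h5] at hn
    have h6 : sqNorm (0 : GolayPt → ℤ) = 0 := by
      show ∑ i, (0 : GolayPt → ℤ) i ^ 2 = 0
      simp
    rw [h6] at hn
    norm_num at hn
  obtain ⟨i₀, hi₀⟩ : (sup c).Nonempty := by
    rw [← card_pos]
    have : (sup c).card = wt c := rfl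
    omega
  have heven : ∀ i, (w : GolayPt → ℤ) i ≡ 0 [ZMOD 2] := by
    rcases MinShapes.parity_cases w.2 with h | h
    · exact h
    · exfalso
      have h1 := h i₀
      rw [h0 i₀ hi₀] at h1
      exact absurd h1 (by decide)
  rcases MinShapes.even_case w.2 hn heven with ⟨T, S, hT, -, hv⟩ | ⟨O, S, hO, hSO, hS, hv⟩
  · exact i3v_four hc0 hc1 hT hv h0
  · have hdis : Disjoint (sup c) O := by
      rw [disjoint_left]
      intro i hi hiO
      have h1 := h0 i hi
      rw [hv] at h1
      simp only [vec, if_pos hiO] at h1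
      split_ifs at h1 <;> omega
    have hO8 := octad_card hO
    rcases wt_cases c with h | h | h | h | h
    · exact absurd h hc0
    · exact i3v_eight h hO hSO hS hv hdis
    · exfalso
      have h2 := card_symmDiff_add O (sup c)
      rw [disjoint_iff_inter_eq_empty.1 hdis.symm, hO8] at h2
      have h3 := card_of_mem_supports (symmDiff_mem_supports hO.1 (sup_mem c))
      have h4 : (sup c).card = 12 := h
      rw [h4, card_empty] at h2
      omega
    · refine i3v_sixteen hO hSO hS hv ?_
      have h4 : (sup c).card = 16 := h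
      apply eq_of_subset_of_card_le
      · intro i hi
        rw [mem_compl]
        exact disjoint_left.1 hdis hi
      · rw [card_compl, hO8, h4]
        decide
    · exact absurd h hc1

/-- **`Co2`** -/
theorem i3_co2 {v : leechLattice} (hv : sqNorm (v : GolayPt → ℤ) = 32) {x : MulAction.stabilizer Co0 v}
    (hx : orderOf x = 2) : I3 x := by
  have hx2 : (x : Co0) * (x : Co0) = 1 := by
    have h1 := pow_orderOf_eq_one x
    rw [hx, pow_two] at h1
    exact congrArg Subtype.val h1
  have hx1 : (x : Co0) ≠ 1 := by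
    intro h1
    have h2 : x = 1 := Subtype.ext h1
    rw [h2, orderOf_one] at hx
    norm_num at hx
  obtain ⟨g, g1, g2, g3, g4⟩ := i3v_min hx2 hx1 hv x.2
  exact ⟨⟨g, g4⟩, Subtype.ext g1, fun h => g2 (congrArg Subtype.val h), Subtype.ext g3⟩

end Cfsg.Agent.H518.PiB
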