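import Cfsg.Agent.H518.PiB.Co1Inv
import Cfsg.Agent.SporadicStructure.MinShapes

/-!
# Words meeting an octad in prescribed sets (helper518, S3876, row `Co2`)
-/

set_option autoImplicit false

namespace Cfsg.Agent.H518.PiB

open Cfsg Finset Cfsg.Agent.SporadicA.Co0Mono Cfsg.Agent.SporadicStructure.Co0Base
open Cfsg.Agent.SporadicA.Xi Cfsg.Agent.CoOneType.SignFacts
open Cfsg.Agent.SporadicStructure Cfsg.Agent.SporadicStructure.LeechBase
open Cfsg.Agent.SporadicA.GolayBase
open Cfsg.Agent.SporadicStructure.MinShapes (vec)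
open XiThree (Sm)

/-- the parities of the intersections with the tetrads agree -/
theorem parity {T : GolayPt → Fin 6} (hT : IsSextet T) (c : golayCode) (k : Fin 6) :
    (fib T k ∩ sup c).card % 2 = (fib T 0 ∩ sup c).card % 2 := by
  classical
  set z : GolayPt → ℤ := fun i => if i ∈ sup c then 1 else 0 with hz
  have hred : red z = (c : GolayPt → ZMod 2) := by
    funext i
    rw [red_apply, hz]
    by_cases hi : i ∈ sup c
    · simp only [hi, if_true]
      rw [(mem_sup c i).1 hi]
      norm_num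
    · simp only [hi, if_false]
      rw [(notMem_sup c i).1 hi]
      norm_num
  obtain ⟨b, hb⟩ := fib_parity hT (z := z) (by rw [hred]; exact c.2) k
  have hc : ∀ k, ∑ p ∈ fib T k, z p = ((fib T k ∩ sup c).card : ℤ) := by
    intro k
    rw [hz, sum_ite_mem, sum_const]
    simp
  rw [hc, hc] at hb
  omega

/-- a set is the disjoint union of its intersections with the tetrads -/
theorem card_eq_sum (T : GolayPt → Fin 6) (A : Finset GolayPt) : A.card = ∑ k, (fib T k ∩ A).card := by
  classical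
  rw [card_eq_sum_card_fiberwise (f := T) (t := univ) (fun _ _ => mem_univ _)]
  refine sum_congr rfl fun k _ => ?_
  congr 1
  ext j
  rw [mem_filter, mem_inter, mem_fib]
  exact and_comm

/-- the words `tw k + tw l` -/
theorem exists_sep {p q : GolayPt} (hpq : p ≠ q) :
    ∃ d : golayCode, (d : GolayPt → ZMod 2) p = 1 ∧ (d : GolayPt → ZMod 2) q = 0 := by
  classical
  have h1 : 3 ≤ (({p, q} : Finset GolayPt)ᶜ).card := by
    rw [card_compl, card_pair hpq]
    decide
  obtain ⟨R, hR, hR3⟩ := exists_subset_card_eq h1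
  have hp : p ∉ R := fun h => (mem_compl.1 (hR h)) (by simp)
  have hq : q ∉ R := fun h => (mem_compl.1 (hR h)) (by simp)
  obtain ⟨T, hT, hT0⟩ := Cfsg.Agent.SporadicA.XiSextet.exists_isSextet Cfsg.Agent.S0363.result (insert p R)
    (by rw [card_insert_of_notMem hp, hR3])
  have hp0 : T p = 0 := mem_fib.1 (by rw [hT0]; exact mem_insert_self _ _)
  have hq0 : T q ≠ 0 := by
    intro h
    have h2 : q ∈ fib T 0 := mem_fib.2 h
    rw [hT0, mem_insert] at h2
    rcases h2 with h2 | h2
    · exact hpq h2.symm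
    · exact hq h2
  obtain ⟨l, hl⟩ : ∃ l : Fin 6, l ≠ 0 ∧ l ≠ T q := by
    generalize T q = a at hq0
    revert a
    decide
  refine ⟨⟨tw T 0 + tw T l, tw_add_mem hT 0 l⟩, ?_, ?_⟩
  · show tw T 0 p + tw T l p = 1
    unfold tw
    rw [if_pos hp0, hp0, if_neg hl.1.symm, add_zero]
  · show tw T 0 q + tw T l q = 0
    unfold tw
    rw [if_neg hq0, if_neg hl.2.symm, add_zero]

/-- the word of an octad -/
theorem exists_word {O : Finset GolayPt} (hO : O ∈ octads) : ∃ o : golayCode, sup o = O := by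
  obtain ⟨o, ho, h⟩ := hO.1
  exact ⟨⟨o, ho⟩, h⟩

/-- **a word meeting an octad in two given points** -/
theorem exists_pair {O : Finset GolayPt} (hO : O ∈ octads) {a b : GolayPt} (ha : a ∈ O) (hb : b ∈ O) (hab : a ≠ b) :
    ∃ d : golayCode, (d : GolayPt → ZMod 2) a = 1 ∧ (d : GolayPt → ZMod 2) b = 1 ∧
      ∀ j ∈ O, j ≠ a → j ≠ b → (d : GolayPt → ZMod 2) j = 0 := by
  classical
  have hc8 := octad_card hO
  have h1 : 2 ≤ (Oᶜ).card := by
    rw [card_compl, hc8]
    decide
  obtain ⟨R, hR, hR2⟩ := exists_subset_card_eq h1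
  have hRO : ∀ j ∈ R, j ∉ O := fun j hj => mem_compl.1 (hR hj)
  have hdis : Disjoint ({a, b} : Finset GolayPt) R := by
    rw [disjoint_left]
    intro j hj hj'
    rw [mem_insert, mem_singleton] at hj
    rcases hj with rfl | rfl
    · exact hRO _ hj' ha
    · exact hRO _ hj' hb
  obtain ⟨T, hT, hT0⟩ := Cfsg.Agent.SporadicA.XiSextet.exists_isSextet Cfsg.Agent.S0363.result ({a, b} ∪ R)
    (by rw [card_union_of_disjoint hdis, card_pair hab, hR2])
  obtain ⟨o, ho⟩ := exists_word hO
  have h0 : fib T 0 ∩ O = {a, b} := by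
    rw [hT0]
    ext j
    rw [mem_inter, mem_union]
    constructor
    · rintro ⟨h | h, h'⟩
      · exact h
      · exact absurd h' (hRO j h)
    · intro h
      refine ⟨Or.inl h, ?_⟩
      rw [mem_insert, mem_singleton] at h
      rcases h with rfl | rfl
      · exact ha
      · exact hb
  obtain ⟨k, hk0, hk⟩ : ∃ k : Fin 6, k ≠ 0 ∧ fib T k ∩ O = ∅ := by
    by_contra hcon
    push Not at hcon
    have h2 := card_eq_sum T O
    rw [hc8, ← add_sum_erase _ _ (mem_univ (0 : Fin 6)), h0, card_pair hab] at h2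
    have h3 : ∀ k ∈ (univ : Finset (Fin 6)).erase 0, 2 ≤ (fib T k ∩ O).card := by
      intro k hk
      have h4 := hcon k (ne_of_mem_erase hk)
      have h5 := parity hT o k
      rw [ho, h0, card_pair hab] at h5
      have h6 : (fib T k ∩ O).card ≠ 0 := fun h => h4.ne_empty (card_eq_zero.1 h)
      omega
    have h4 := card_nsmul_le_sum _ _ _ h3
    rw [card_erase_of_mem (mem_univ _), card_univ, Fintype.card_fin, smul_eq_mul] at h4
    omega
  have hTa : T a = 0 := by
    have : a ∈ fib T 0 ∩ O := by rw [h0]; simp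
    exact mem_fib.1 (mem_inter.1 this).1
  have hTb : T b = 0 := by
    have : b ∈ fib T 0 ∩ O := by rw [h0]; simp
    exact mem_fib.1 (mem_inter.1 this).1
  refine ⟨⟨tw T 0 + tw T k, tw_add_mem hT 0 k⟩, ?_, ?_, ?_⟩
  · show tw T 0 a + tw T k a = 1
    unfold tw
    rw [if_pos hTa, hTa, if_neg hk0.symm, add_zero]
  · show tw T 0 b + tw T k b = 1
    unfold tw
    rw [if_pos hTb, hTb, if_neg hk0.symm, add_zero]
  · intro j hj hja hjb
    show tw T 0 j + tw T k j = 0
    unfold tw
    rw [if_neg, if_neg, add_zero]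
    · intro h
      have : j ∈ fib T k ∩ O := mem_inter.2 ⟨mem_fib.2 h, hj⟩
      rw [hk] at this
      exact absurd this (notMem_empty _)
    · intro h
      have : j ∈ fib T 0 ∩ O := mem_inter.2 ⟨mem_fib.2 h, hj⟩
      rw [h0, mem_insert, mem_singleton] at this
      rcases this with h | h
      · exact hja h
      · exact hjb h

/-- **every even function on an octad is the restriction of a word** -/
theorem exists_even {O : Finset GolayPt} (hO : O ∈ octads) (s : GolayPt → ZMod 2) (hs : ∑ j ∈ O, s j = 0) :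
    ∃ d : golayCode, ∀ j ∈ O, (d : GolayPt → ZMod 2) j = s j := by
  classical
  obtain ⟨j0, hj0⟩ : O.Nonempty := by
    rw [← card_pos, octad_card hO]
    norm_num
  have key : ∀ j, ∃ d : golayCode, j ∈ O.erase j0 → (d : GolayPt → ZMod 2) j = 1 ∧ (d : GolayPt → ZMod 2) j0 = 1 ∧
      ∀ i ∈ O, i ≠ j → i ≠ j0 → (d : GolayPt → ZMod 2) i = 0 := by
    intro j
    by_cases hj : j ∈ O.erase j0
    · obtain ⟨d, hd⟩ := exists_pair hO (mem_of_mem_erase hj) hj0 (ne_of_mem_erase hj)
      exact ⟨d, fun _ => hd⟩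
    · exact ⟨0, fun h => absurd h hj⟩
  choose D hD using key
  have hco : ∀ (F : Finset GolayPt) (i : GolayPt), ((∑ j ∈ F, s j • D j : golayCode) : GolayPt → ZMod 2) i =
      ∑ j ∈ F, s j * (D j : GolayPt → ZMod 2) i := by
    intro F i
    rw [Submodule.coe_sum, Finset.sum_apply]
    rfl
  refine ⟨∑ j ∈ O.erase j0, s j • D j, fun i hi => ?_⟩
  rw [hco]
  by_cases hi0 : i = j0
  · subst hi0
    have h1 : ∑ j ∈ O.erase i, s j * (D j : GolayPt → ZMod 2) i = ∑ j ∈ O.erase i, s j :=
      sum_congr rfl fun j hj => by rw [(hD j hj).2.1, mul_one]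
    rw [h1]
    have h2 := add_sum_erase O s hi
    rw [hs] at h2
    rw [← sub_eq_zero, sub_eq_add_neg, CharTwo.neg_eq, add_comm]
    exact h2
  · have hi' : i ∈ O.erase j0 := mem_erase.2 ⟨hi0, hi⟩
    rw [sum_eq_single i]
    · rw [(hD i hi').1, mul_one]
    · intro j hj hji
      rw [(hD j hj).2.2 i hi (Ne.symm hji) hi0, mul_zero]
    · intro h
      exact absurd hi' h

/-- **changing the signs of an octad vector** -/
theorem exists_signMap {O S L : Finset GolayPt} (hO : O ∈ octads) (hSO : S ⊆ O) (hLO : L ⊆ O) (hS : Even S.card)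
    (hL : Even L.card) : ∃ d : golayCode, signMap d (vec 2 O S) = vec 2 O L := by
  classical
  have hsum : ∀ A : Finset GolayPt, A ⊆ O → Even A.card → ∑ j ∈ O, (if j ∈ A then (1 : ZMod 2) else 0) = 0 := by
    intro A hA hev
    rw [sum_ite_mem, inter_eq_right.2 hA, sum_const, nsmul_eq_mul, mul_one]
    obtain ⟨n, hn⟩ := hev
    rw [hn]
    push_cast
    exact CharTwo.add_self_eq_zero _
  obtain ⟨d, hd⟩ := exists_even hO (fun j => (if j ∈ S then (1 : ZMod 2) else 0) + (if j ∈ L then 1 else 0)) (by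
    rw [sum_add_distrib, hsum S hSO hS, hsum L hLO hL, add_zero])
  refine ⟨d, ?_⟩
  funext i
  rw [signMap_apply]
  unfold vec
  by_cases hi : i ∈ O
  · rw [if_pos hi, if_pos hi, hd i hi]
    by_cases h1 : i ∈ S <;> by_cases h2 : i ∈ L <;> simp [h1, h2, sgn] <;> decide
  · rw [if_neg hi, if_neg hi, mul_zero]

end Cfsg.Agent.H518.PiB
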