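import Cfsg.Agent.H518.PiB.Co3Inv

/-!
# Every involution of `Co3` inverts an element of order three, continued (helper518, S3876)
-/

set_option autoImplicit false

namespace Cfsg.Agent.H518.PiB

open Cfsg Finset Cfsg.Agent.SporadicA.Co0Mono Cfsg.Agent.SporadicStructure.Co0Base
open Cfsg.Agent.SporadicA.Xi Cfsg.Agent.CoOneType.SignFacts
open Cfsg.Agent.SporadicStructure Cfsg.Agent.SporadicStructure.LeechBase
open Cfsg.Agent.SporadicA.GolayBase Cfsg.Agent.SporadicA.GolayPerm
open Cfsg.Agent.SporadicStructure.M24El Cfsg.Agent.Co2Type.Mono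
open Cfsg.Agent.SporadicStructure.MinShapes (vec)
open Cfsg.Agent.SporadicA.Co1Simple (allOne allOne_mem_center)
open Cfsg.Agent.J4.M24InvolData (P1 P2)
open Cfsg.Agent.J4.M24Invol (ok_P1 ok_P2 invol_conj)
open Cfsg.Agent.SigZeroCo2.Lin (mat rep lin Sp)
open XiThree (Sm)

/-- the set of minus signs of a function on a set -/
noncomputable def mn (O : Finset GolayPt) (y : GolayPt → ℤ) : Finset GolayPt := O.filter fun j => y j = -1

theorem mn_subset (O : Finset GolayPt) (y : GolayPt → ℤ) : mn O y ⊆ O := filter_subset _ _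

theorem sum_pm {O : Finset GolayPt} {y : GolayPt → ℤ} (h : ∀ j ∈ O, y j = 1 ∨ y j = -1) :
    ∑ j ∈ O, y j = (O.card : ℤ) - 2 * ((mn O y).card : ℤ) := by
  classical
  have h1 : ∀ j ∈ O, y j = 1 - 2 * (if j ∈ mn O y then 1 else 0) := by
    intro j hj
    unfold mn
    rcases h j hj with h2 | h2
    · rw [h2, if_neg]
      · norm_num
      · rw [mem_filter, h2]
        rintro ⟨-, h3⟩
        norm_num at h3
    · rw [h2, if_pos (mem_filter.2 ⟨hj, h2⟩)]
      norm_num
  rw [sum_congr rfl h1, sum_sub_distrib, ← mul_sum, sum_ite_mem, inter_eq_right.2 (mn_subset O y), sum_const,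
    sum_const]
  simp

/-- sign changes of a function with values `±1` -/
theorem sgn_mn {O L : Finset GolayPt} {y : GolayPt → ℤ} (h : ∀ j ∈ O, y j = 1 ∨ y j = -1) {d : golayCode}
    (hd : ∀ j ∈ O, (d : GolayPt → ZMod 2) j = (if j ∈ mn O y then (1 : ZMod 2) else 0) + (if j ∈ L then 1 else 0))
    {j : GolayPt} (hj : j ∈ O) : sgn ((d : GolayPt → ZMod 2) j) * y j = if j ∈ L then -1 else 1 := by
  classical
  rw [hd j hj, sgn_add]
  rcases h j hj with h2 | h2
  · have h3 : j ∉ mn O y := by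
      unfold mn
      rw [mem_filter, h2]
      rintro ⟨-, h3⟩
      norm_num at h3
    rw [h2, if_neg h3, sgn_zero]
    split_ifs
    · rw [sgn_one]; norm_num
    · rw [sgn_zero]; norm_num
  · have h3 : j ∈ mn O y := by
      unfold mn
      exact mem_filter.2 ⟨hj, h2⟩
    rw [h2, if_pos h3, sgn_one]
    split_ifs
    · rw [sgn_one]; norm_num
    · rw [sgn_zero]; norm_num

/-- **the octad case** -/
theorem i3v_six {c o : golayCode} (hc : wt c = 8) (ho : wt o = 8) (hdis : Disjoint (sup c) (sup o))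
    {v : leechLattice} {y : GolayPt → ℤ} (hy : ∀ j, (v : GolayPt → ℤ) j = 2 * y j) (hs : (∑ j, y j) % 4 = 0)
    (h1 : ∀ j ∈ sup o, y j = 1 ∨ y j = -1) {p : GolayPt} (hpo : p ∉ sup o) (hpc : p ∉ sup c)
    (hyp : y p = 2 ∨ y p = -2) (hz : ∀ j, j ∉ sup o → j ≠ p → y j = 0) : I3v (signCo0 c) v := by
  classical
  have hO : sup o ∈ octads := ⟨sup_mem o, ho⟩
  have hO8 : (sup o).card = 8 := ho
  have hwc : (sup c).card = 8 := hc
  obtain ⟨a, b, ha, hb, hab⟩ := one_lt_card_iff.1 (show 1 < (sup o).card by omega)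
  obtain ⟨i, hi⟩ : (sup c).Nonempty := by rw [← card_pos]; omega
  have hac : a ∉ sup c := fun h => (disjoint_left.1 hdis h) ha
  have hbc : b ∉ sup c := fun h => (disjoint_left.1 hdis h) hb
  have hiO : i ∉ sup o := disjoint_left.1 hdis hi
  have hip : i ≠ p := fun h => hpc (h ▸ hi)
  have hap : a ≠ p := fun h => hpo (h ▸ ha)
  have hbp : b ≠ p := fun h => hpo (h ▸ hb)
  have hai : a ≠ i := fun h => hac (h ▸ hi)
  have hbi : b ≠ i := fun h => hbc (h ▸ hi)
  have n1 : i ∉ ({p} : Finset GolayPt) := by rw [mem_singleton]; exact hip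
  have n2 : b ∉ ({i, p} : Finset GolayPt) := by
    rw [mem_insert, mem_singleton, not_or]; exact ⟨hbi, hbp⟩
  have n3 : a ∉ ({b, i, p} : Finset GolayPt) := by
    rw [mem_insert, mem_insert, mem_singleton, not_or, not_or]; exact ⟨hab, hai, hap⟩
  have hS4 : ({a, b, i, p} : Finset GolayPt).card = 4 := by
    rw [card_insert_of_notMem n3, card_insert_of_notMem n2, card_insert_of_notMem n1, card_singleton]
  obtain ⟨T, hT, hT0⟩ := Cfsg.Agent.SporadicA.XiSextet.exists_isSextet Cfsg.Agent.S0363.result _ hS4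
  have hc0 : fib T 0 ∩ sup c = {i} := by
    rw [hT0]
    ext j
    simp only [mem_inter, mem_insert, mem_singleton]
    constructor
    · rintro ⟨rfl | rfl | rfl | rfl, h⟩
      · exact absurd h hac
      · exact absurd h hbc
      · rfl
      · exact absurd h hpc
    · rintro rfl
      exact ⟨Or.inr (Or.inr (Or.inl rfl)), hi⟩
  have hO0 : fib T 0 ∩ sup o = {a, b} := by
    rw [hT0]
    ext j
    simp only [mem_inter, mem_insert, mem_singleton]
    constructor
    · rintro ⟨rfl | rfl | rfl | rfl, h⟩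
      · exact Or.inl rfl
      · exact Or.inr rfl
      · exact absurd h hiO
      · exact absurd h hpo
    · rintro (rfl | rfl)
      · exact ⟨Or.inl rfl, ha⟩
      · exact ⟨Or.inr (Or.inl rfl), hb⟩
  have hTp : T p = 0 := mem_fib.1 (by rw [hT0]; simp)
  have hcard : ∀ k, (fib T k ∩ sup o).card = 0 ∨ (fib T k ∩ sup o).card = 2 := by
    intro k
    have h1 := parity hT o k
    rw [hO0, card_pair hab] at h1
    have h2 := parity hT c k
    rw [hc0, card_singleton] at h2
    have h3 : (fib T k ∩ sup o).card + (fib T k ∩ sup c).card ≤ 4 := by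
      rw [← hT.card k, ← card_union_of_disjoint]
      · exact card_le_card (union_subset inter_subset_left inter_subset_left)
      · exact (hdis.symm.mono inter_subset_right inter_subset_right)
    omega
  have hl : ∀ k, ∃ l : GolayPt, (fib T k ∩ sup o).card = 2 → l ∈ fib T k ∩ sup o := by
    intro k
    by_cases h : (fib T k ∩ sup o).card = 2
    · obtain ⟨l, hl⟩ : (fib T k ∩ sup o).Nonempty := by rw [← card_pos]; omega
      exact ⟨l, fun _ => hl⟩
    · exact ⟨a, fun h' => absurd h' h⟩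
  choose l hl using hl
  set L := (sup o).filter fun j => j = l (T j) ∨ T j = 0 with hL
  have hL0 : fib T 0 ∩ L = {a, b} := by
    rw [← hO0]
    ext j
    rw [mem_inter, mem_inter, hL, mem_filter, mem_fib]
    constructor
    · rintro ⟨h2, h3, -⟩
      exact ⟨h2, h3⟩
    · rintro ⟨h2, h3⟩
      exact ⟨h2, h3, Or.inr h2⟩
  have hLk : ∀ k, k ≠ 0 → (fib T k ∩ L).card * 2 = (fib T k ∩ sup o).card := by
    intro k hk
    rcases hcard k with h | h
    · have h1 : fib T k ∩ sup o = ∅ := card_eq_zero.1 h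
      have h2 : fib T k ∩ L = ∅ := by
        rw [← subset_empty, ← h1]
        exact inter_subset_inter_left (filter_subset _ _)
      rw [h1, h2, card_empty]
    · have h1 : fib T k ∩ L = {l k} := by
        ext j
        rw [mem_inter, hL, mem_filter, mem_fib, mem_singleton]
        constructor
        · rintro ⟨h2, -, h3 | h3⟩
          · rw [h3, h2]
          · exact absurd (h2.symm.trans h3) hk
        · rintro rfl
          have h2 := mem_inter.1 (hl k h)
          have h3 := mem_fib.1 h2.1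
          exact ⟨h3, h2.2, Or.inl (by rw [h3])⟩
      rw [h1, h, card_singleton]
  have hL5 : L.card = 5 := by
    have h1 := card_eq_sum T (sup o)
    have h2 := card_eq_sum T L
    rw [← add_sum_erase _ _ (mem_univ (0 : Fin 6)), hO0, card_pair hab] at h1
    rw [← add_sum_erase _ _ (mem_univ (0 : Fin 6)), hL0, card_pair hab] at h2
    have h3 : (∑ k ∈ (univ : Finset (Fin 6)).erase 0, (fib T k ∩ L).card) * 2 =
        ∑ k ∈ (univ : Finset (Fin 6)).erase 0, (fib T k ∩ sup o).card := by
      rw [sum_mul]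
      exact sum_congr rfl fun k hk => hLk k (ne_of_mem_erase hk)
    omega
  -- the parity of the minus signs
  have hsum : ∑ j, y j = y p + ∑ j ∈ sup o, y j := by
    rw [← sum_add_sum_compl (sup o) y, add_comm]
    congr 1
    rw [← add_sum_erase _ y (mem_compl.2 hpo), sum_eq_zero, add_zero]
    intro j hj
    exact hz j (mem_compl.1 (mem_of_mem_erase hj)) (ne_of_mem_erase hj)
  have hodd : (mn (sup o) y).card % 2 = 1 := by
    rw [hsum, sum_pm h1, hO8] at hs
    rcases hyp with h | h <;> rw [h] at hs <;> omega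
  obtain ⟨d, hd⟩ := exists_even hO
    (fun j => (if j ∈ mn (sup o) y then (1 : ZMod 2) else 0) + (if j ∈ L then 1 else 0)) (by
    rw [sum_add_distrib, sum_ind (mn_subset _ _), sum_ind (hL ▸ filter_subset _ _), hL5, ← Nat.cast_add,
      ZMod.natCast_eq_zero_iff]
    omega)
  -- the sign at `p`
  obtain ⟨e, he, hep⟩ : ∃ e : golayCode, (∀ j ∈ sup o, (e : GolayPt → ZMod 2) j = (d : GolayPt → ZMod 2) j) ∧
      sgn ((e : GolayPt → ZMod 2) p) * y p = 2 := by
    by_cases h : sgn ((d : GolayPt → ZMod 2) p) * y p = 2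
    · exact ⟨d, fun _ _ => rfl, h⟩
    · refine ⟨d + (o + allOne), fun j hj => ?_, ?_⟩
      · show (d : GolayPt → ZMod 2) j + ((o : GolayPt → ZMod 2) j + 1) = _
        rw [(mem_sup o j).1 hj, show (1 : ZMod 2) + 1 = 0 by decide, add_zero]
      · have h2 : ((d + (o + allOne) : golayCode) : GolayPt → ZMod 2) p = (d : GolayPt → ZMod 2) p + 1 := by
          show (d : GolayPt → ZMod 2) p + ((o : GolayPt → ZMod 2) p + 1) = _
          rw [(notMem_sup o p).1 hpo, zero_add]
        rw [h2, sgn_add, sgn_one]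
        rcases zmod2_cases ((d : GolayPt → ZMod 2) p) with h3 | h3 <;> rw [h3] at h ⊢ <;>
          rcases hyp with h4 | h4 <;> rw [h4] at h ⊢ <;> simp [sgn] at h ⊢
  refine I3v.comm (signCo0 e) (sign_comm c e) ?_
  have hvO : ∀ j ∈ sup o, ((signCo0 e • v : leechLattice) : GolayPt → ℤ) j = if j ∈ L then -2 else 2 := by
    intro j hj
    rw [signCo0_smul, signMap_apply, hy, mul_left_comm, he j hj, sgn_mn h1 hd hj]
    split_ifs <;> norm_num
  have hvp : ((signCo0 e • v : leechLattice) : GolayPt → ℤ) p = 4 := by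
    rw [signCo0_smul, signMap_apply, hy, mul_left_comm, hep]
    norm_num
  have hvz : ∀ j, j ∉ sup o → j ≠ p → ((signCo0 e • v : leechLattice) : GolayPt → ℤ) j = 0 := by
    intro j hj hjp
    rw [signCo0_smul, signMap_apply, hy, hz j hj hjp, mul_zero, mul_zero]
  refine i3v_of_sextet hT (by rw [hc0, card_singleton]) ?_ fun k => ?_
  · intro j hj
    exact hvz j (disjoint_left.1 hdis hj) fun h => hpc (h ▸ hj)
  · by_cases hk : k = 0
    · subst hk
      show ∑ j ∈ fib T 0, _ = (0 : ℤ)
      have haL : a ∈ L := (mem_inter.1 (show a ∈ fib T 0 ∩ L by rw [hL0]; simp)).2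
      have hbL : b ∈ L := (mem_inter.1 (show b ∈ fib T 0 ∩ L by rw [hL0]; simp)).2
      rw [hT0, sum_insert n3, sum_insert n2, sum_insert n1, sum_singleton, hvp, hvO a ha, hvO b hb, if_pos haL,
        if_pos hbL, hvz i hiO hip]
      norm_num
    · show ∑ j ∈ fib T k, _ = (0 : ℤ)
      have h2 : ∀ j ∈ fib T k, ((signCo0 e • v : leechLattice) : GolayPt → ℤ) j =
          2 * (if j ∈ sup o then 1 else 0) - 4 * (if j ∈ L then 1 else 0) := by
        intro j hj
        by_cases h3 : j ∈ sup o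
        · rw [hvO j h3]
          by_cases h4 : j ∈ L <;> simp [h3, h4]
        · have h4 : j ∉ L := fun h => h3 (filter_subset _ _ h)
          have h5 : j ≠ p := by
            rintro rfl
            exact hk ((mem_fib.1 hj).symm.trans hTp)
          rw [hvz j h3 h5]
          simp [h3, h4]
      rw [sum_congr rfl h2, sum_sub_distrib, ← mul_sum, ← mul_sum, sum_ite_mem, sum_ite_mem, sum_const, sum_const]
      have h3 := hLk k hk
      have h4 : ((fib T k ∩ L).card : ℤ) * 2 = ((fib T k ∩ sup o).card : ℤ) := by exact_mod_cast h3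
      simp only [nsmul_eq_mul, mul_one]
      linarith

/-! ### the dodecad case -/

/-- the dodecad -/
def m0 : ℕ := 7538489

theorem isCode_m0 : isCode m0 = true := by decide +kernel

/-- the word of the dodecad -/
noncomputable def d0 : golayCode := cd m0

theorem mem_d0 (i : GolayPt) : i ∈ sup d0 ↔ m0.testBit (idx i) = true := by
  rw [mem_sup, d0, coe_cd isCode_m0, word_apply]
  split_ifs with h
  · simp [h]
  · simp [h]

theorem wt_d0 : wt d0 = 12 := by
  have h1 : sup d0 = univ.filter fun i : GolayPt => m0.testBit (idx i) = true := by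
    ext i
    rw [mem_d0, mem_filter]
    exact ⟨fun h => ⟨mem_univ i, h⟩, fun h => h.2⟩
  show (sup d0).card = 12
  rw [h1]
  decide +kernel

/-- the words meeting the dodecad in two points -/
def pw : ℕ → ℕ
  | 3 => 806987
  | 4 => 272595
  | 5 => 45159
  | 8 => 582081
  | 9 => 563843
  | 10 => 551943
  | 16 => 864389
  | 17 => 153797
  | 20 => 1869893
  | 21 => 2422785
  | _ => 4505735

theorem pw_ok' : ∀ n, n < 24 → (m0.testBit n = false ∨ n = 0 ∨ (isCode (pw n) = true ∧ (pw n).testBit n = true ∧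
    (pw n).testBit 0 = true ∧ ∀ k, k < 24 → (m0.testBit k = false ∨ k = n ∨ k = 0 ∨ (pw n).testBit k = false))) := by
  decide +kernel

theorem pw_ok (n : ℕ) (hn : n < 24) (h : m0.testBit n = true) (h0 : n ≠ 0) : isCode (pw n) = true ∧
    (pw n).testBit n = true ∧ (pw n).testBit 0 = true ∧
    ∀ k, k < 24 → m0.testBit k = true → k ≠ n → k ≠ 0 → (pw n).testBit k = false := by
  rcases pw_ok' n hn with h1 | h1 | ⟨h1, h2, h3, h4⟩
  · rw [h] at h1
    exact absurd h1 (by decide)
  · exact absurd h1 h0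
  · refine ⟨h1, h2, h3, fun k hk hk1 hk2 hk3 => ?_⟩
    rcases h4 k hk with h5 | h5 | h5 | h5
    · rw [hk1] at h5
      exact absurd h5 (by decide)
    · exact absurd h5 hk2
    · exact absurd h5 hk3
    · exact h5

theorem even_d0 (s : GolayPt → ZMod 2) (hs : ∑ j ∈ sup d0, s j = 0) :
    ∃ d : golayCode, ∀ j ∈ sup d0, (d : GolayPt → ZMod 2) j = s j := by
  classical
  have h0 : (some 0 : GolayPt) ∈ sup d0 := by
    rw [mem_d0]
    decide +kernel
  have hidx : idx (some 0 : GolayPt) = 0 := by decide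
  refine exists_even_of h0 (fun j hj => ?_) s hs
  have h1 := (mem_d0 j).1 (mem_of_mem_erase hj)
  have h2 : idx j ≠ 0 := by
    intro h
    exact ne_of_mem_erase hj (idx_injective (h.trans hidx.symm))
  obtain ⟨p1, p2, p3, p4⟩ := pw_ok (idx j) (idx_lt j) h1 h2
  refine ⟨cd (pw (idx j)), ?_, ?_, ?_⟩
  · rw [coe_cd p1, word_apply, if_pos p2]
  · rw [coe_cd p1, word_apply, hidx, if_pos p3]
  · intro i hi hij hi0
    rw [coe_cd p1, word_apply, p4 (idx i) (idx_lt i) ((mem_d0 i).1 hi) (fun h => hij (idx_injective h))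
      (fun h => hi0 (idx_injective (h.trans hidx.symm)))]
    rfl

/-- the vector `2` on the dodecad -/
noncomputable def w0 : leechLattice := ⟨fun i => if i ∈ sup d0 then 2 else 0, two_on_mem (sup_mem d0)⟩

theorem w0_apply (i : GolayPt) : (w0 : GolayPt → ℤ) i = if i ∈ sup d0 then 2 else 0 := rfl

theorem norm_w0 : sqNorm (w0 : GolayPt → ℤ) = 48 := by
  classical
  show ∑ i, (w0 : GolayPt → ℤ) i ^ 2 = 48
  have h1 : ∀ i, (w0 : GolayPt → ℤ) i ^ 2 = if i ∈ sup d0 then 4 else 0 := by
    intro i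
    rw [w0_apply]
    split_ifs <;> norm_num
  rw [sum_congr rfl fun i _ => h1 i, sum_ite_mem, univ_inter, sum_const, nsmul_eq_mul]
  have h2 : (sup d0).card = 12 := wt_d0
  rw [h2]
  norm_num

/-- permutations stabilising the dodecad fix `w0` -/
theorem perm_w0 {P : ℕ} (hP : ok P = true) (h : ∀ n, n < 24 → m0.testBit (papp P n) = m0.testBit n) :
    permCo0 (el P) • w0 = w0 := by
  apply Subtype.ext
  funext i
  rw [permCo0_smul, permMap_apply, w0_apply, w0_apply]
  have h1 : ∀ j, (el P : Equiv.Perm GolayPt) j ∈ sup d0 ↔ j ∈ sup d0 := by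
    intro j
    rw [mem_d0, mem_d0, coe_el hP, idx_permOf, h (idx j) (idx_lt j)]
  have h2 := h1 ((el P : Equiv.Perm GolayPt).symm i)
  rw [Equiv.apply_symm_apply] at h2
  exact if_congr h2.symm rfl rfl

theorem i3v_w0 : I3v (permCo0 (el P2)) w0 := by
  have ok33 : ok (pcomp Q3 Q3) = true := ok_pcomp ok_Q3 ok_Q3
  refine ⟨permCo0 (el Q3), ?_, ?_, ?_, ?_⟩
  · rw [← map_mul, ← map_mul, ← el_pcomp ok_Q3 ok_Q3, ← el_pcomp ok33 ok_Q3,
      show pcomp (pcomp Q3 Q3) Q3 = idP by decide +kernel, el_idP, map_one]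
  · intro h
    have h1 : mo 0 Q3 = mo 0 idP := by
      unfold mo
      rw [h, el_idP, map_one]
    have h2 := el_inj ok_Q3 ok_idP (by decide +kernel) (by decide +kernel) (mo_inj (by decide +kernel) (by decide +kernel) h1).2
    exact absurd h2 (by decide +kernel)
  · rw [mul_inv_eq_iff_eq_mul, eq_inv_mul_iff_mul_eq, ← map_mul, ← map_mul, ← el_pcomp ok_P2 ok_Q3,
      ← el_pcomp ok_Q3 (ok_pcomp ok_P2 ok_Q3), show pcomp Q3 (pcomp P2 Q3) = P2 by decide +kernel]
  · exact perm_w0 ok_Q3 (by decide +kernel)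

/-- all the pairs of the dodecad type are conjugate -/
theorem dodecad_conj {c o : golayCode} (hc : wt c = 12) (ho : wt o = 12) (hdis : Disjoint (sup c) (sup o))
    {v : leechLattice} {y : GolayPt → ℤ} (hy : ∀ j, (v : GolayPt → ℤ) j = 2 * y j) (hs : (∑ j, y j) % 4 = 0)
    (h1 : ∀ j ∈ sup o, y j = 1 ∨ y j = -1) (hz : ∀ j, j ∉ sup o → y j = 0) :
    ∃ h : Co0, h * signCo0 c * h⁻¹ = signCo0 (d0 + allOne) ∧ h • v = w0 := by
  classical
  have hod : support₂ (o : GolayPt → ZMod 2) ∈ dodecads := ⟨o.2 |> fun h => ⟨_, h, rfl⟩, ho⟩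
  have hdd : support₂ (d0 : GolayPt → ZMod 2) ∈ dodecads := ⟨d0.2 |> fun h => ⟨_, h, rfl⟩, wt_d0⟩
  obtain ⟨σ, hσ⟩ := Cfsg.Agent.CoOneType.InvMain.exists_perm_dodecad hod hdd
  -- `c = o + allOne`
  have hco : c = o + allOne := by
    have h2 : sup c = (sup o)ᶜ := by
      apply eq_of_subset_of_card_le
      · intro i hi
        rw [mem_compl]
        exact disjoint_left.1 hdis hi
      · have h3 : (sup o).card = 12 := ho
        have h4 : (sup c).card = 12 := hc
        rw [card_compl, h3, h4]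
        decide
    apply Subtype.ext
    funext j
    show (c : GolayPt → ZMod 2) j = (o : GolayPt → ZMod 2) j + 1
    by_cases hj : j ∈ sup o
    · have h3 : j ∉ sup c := by rw [h2, mem_compl]; exact fun h => h hj
      rw [(notMem_sup c j).1 h3, (mem_sup o j).1 hj]
      decide
    · have h3 : j ∈ sup c := by rw [h2, mem_compl]; exact hj
      rw [(mem_sup c j).1 h3, (notMem_sup o j).1 hj]
      decide
  have hmem : ∀ j, σ.1 j ∈ sup d0 ↔ j ∈ sup o := by
    intro j
    rw [← hσ, mem_sup, mem_sup]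
    show (o : GolayPt → ZMod 2) (σ.1.symm (σ.1 j)) = 1 ↔ _
    rw [Equiv.symm_apply_apply]
  -- the moved function
  set y' : GolayPt → ℤ := fun j => y (σ.1.symm j) with hy'
  have hsy : ∑ j, y' j = ∑ j, y j := Equiv.sum_comp σ.1.symm y
  have h1' : ∀ j ∈ sup d0, y' j = 1 ∨ y' j = -1 := by
    intro j hj
    apply h1
    rw [← hmem, Equiv.apply_symm_apply]
    exact hj
  have hz' : ∀ j, j ∉ sup d0 → y' j = 0 := by
    intro j hj
    apply hz
    rw [← hmem, Equiv.apply_symm_apply]
    exact hj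
  have hev : (mn (sup d0) y').card % 2 = 0 := by
    have h2 : ∑ j, y' j = ∑ j ∈ sup d0, y' j := by
      rw [← sum_add_sum_compl (sup d0) y', sum_eq_zero (s := (sup d0)ᶜ), add_zero]
      exact fun j hj => hz' j (mem_compl.1 hj)
    have h3 : (sup d0).card = 12 := wt_d0
    rw [← hsy, h2, sum_pm h1', h3] at hs
    omega
  obtain ⟨d, hd⟩ := even_d0 (fun j => (if j ∈ mn (sup d0) y' then (1 : ZMod 2) else 0) + (if j ∈ (∅ : Finset GolayPt) then 1 else 0)) (by
    rw [sum_add_distrib, sum_ind (mn_subset _ _), sum_ind (empty_subset _), card_empty, ← Nat.cast_add,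
      ZMod.natCast_eq_zero_iff]
    omega)
  refine ⟨signCo0 d * permCo0 σ, ?_, ?_⟩
  · have h2 : permCo0 σ * signCo0 c * (permCo0 σ)⁻¹ = signCo0 (d0 + allOne) := by
      rw [perm_mul_sign, mul_inv_cancel_right, hco, Cfsg.Agent.CoOneType.InvMain.wordPerm_add, hσ,
        Cfsg.Agent.CoOneType.InvMain.wordPerm_allOne]
    rw [mul_inv_rev, show signCo0 d * permCo0 σ * signCo0 c * ((permCo0 σ)⁻¹ * (signCo0 d)⁻¹) =
      signCo0 d * (permCo0 σ * signCo0 c * (permCo0 σ)⁻¹) * (signCo0 d)⁻¹ by group, h2, sign_comm,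
      mul_inv_cancel_right]
  · apply Subtype.ext
    funext j
    rw [mul_smul, signCo0_smul, signMap_apply, permCo0_smul, permMap_apply, w0_apply, hy]
    show sgn ((d : GolayPt → ZMod 2) j) * (2 * y' j) = _
    by_cases hj : j ∈ sup d0
    · rw [mul_left_comm, sgn_mn h1' hd hj, if_pos hj]
      simp
    · rw [hz' j hj, if_neg hj]
      simp

/-- an involution is conjugate to a sign change on a word off the vector -/
theorem exists_conj_sign {t : Co0} (ht : t * t = 1) (ht1 : t ≠ 1) {v : leechLattice} (htv : t • v = v) :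
    ∃ (g : Co0) (c : golayCode), wt c ≠ 0 ∧ g * t * g⁻¹ = signCo0 c ∧ ∀ i ∈ sup c, ((g • v : leechLattice) : GolayPt → ℤ) i = 0 := by
  obtain ⟨g, c, hg⟩ := Cfsg.Agent.CoOneType.InvMain.conj_sign_of_sq_one t ht
  refine ⟨g, c, ?_, hg, ?_⟩
  · intro hw0
    apply ht1
    have h3 : c = 0 := by
      apply Cfsg.Agent.CoOneType.InvMain.word_ext
      have h4 : sup c = ∅ := card_eq_zero.1 hw0
      have h5 : sup 0 = ∅ := by
        rw [eq_empty_iff_forall_notMem]
        intro i
        rw [notMem_sup]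
        rfl
      exact h4.trans h5.symm
    rw [h3, signCo0_zero, mul_inv_eq_one, mul_eq_left] at hg
    exact hg
  · have hfix : signCo0 c • (g • v) = g • v := by
      rw [← hg, mul_smul, mul_smul, inv_smul_smul, htv]
    exact (sign_fixed_iff c _).1 hfix

/-- **involutions of the stabiliser of a vector of norm 48** -/
theorem i3v_norm48 {t : Co0} (ht : t * t = 1) (ht1 : t ≠ 1) {v : leechLattice} (hv : sqNorm (v : GolayPt → ℤ) = 48)
    (htv : t • v = v) : I3v t v := by
  obtain ⟨g, c, hc, hg, h0⟩ := exists_conj_sign ht ht1 htv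
  refine I3v.conj g ?_
  rw [hg]
  have hn : sqNorm ((g • v : leechLattice) : GolayPt → ℤ) = 48 := (Cfsg.Agent.LeechMat.Core.co0_sqNorm g v).trans hv
  obtain ⟨o, y, hy, hs, hdis, ⟨ho, hc8, h1, p, hpo, hpc, hyp, hz⟩ | ⟨ho, hc12, h1, hz⟩⟩ := six_cases hc hn h0
  · exact i3v_six hc8 ho hdis hy hs h1 hpo hpc hyp hz
  · obtain ⟨h, hh1, hh2⟩ := dodecad_conj hc12 ho hdis hy hs h1 hz
    -- the model
    have hP2 : permCo0 (el P2) * permCo0 (el P2) = 1 := by
      rw [← map_mul, ← el_pcomp ok_P2 ok_P2, show pcomp P2 P2 = idP by decide +kernel, el_idP, map_one]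
    have hP1 : permCo0 (el P2) ≠ 1 := by
      intro h
      have h1 : mo 0 P2 = mo 0 idP := by
        unfold mo
        rw [h, el_idP, map_one]
      have h2 := el_inj ok_P2 ok_idP (by decide +kernel) (by decide +kernel) (mo_inj (by decide +kernel) (by decide +kernel) h1).2
      exact absurd h2 (by decide +kernel)
    obtain ⟨g', c', hc', hg', h0'⟩ := exists_conj_sign hP2 hP1 (v := w0) (perm_w0 ok_P2 (by decide +kernel))
    have hn' : sqNorm ((g' • w0 : leechLattice) : GolayPt → ℤ) = 48 :=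
      (Cfsg.Agent.LeechMat.Core.co0_sqNorm g' w0).trans norm_w0
    have hwt : wt c' = 12 := by
      have e1 := trace_sign c'
      rw [← hg', trace_conj, trace_P2] at e1
      have e2 : (2 * (wt c' : ℚ)) = 24 := by linarith
      have e3 : (wt c' : ℚ) = 12 := by linarith
      exact_mod_cast e3
    obtain ⟨o', y', hy', hs', hdis', ⟨-, h8, -⟩ | ⟨ho', -, h1', hz'⟩⟩ := six_cases hc' hn' h0'
    · omega
    · obtain ⟨k, hk1, hk2⟩ := dodecad_conj hwt ho' hdis' hy' hs' h1' hz'
      -- transport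
      refine I3v.conj ((k * g')⁻¹ * h) ?_
      have e1 : (k * g') * permCo0 (el P2) * (k * g')⁻¹ = signCo0 (d0 + allOne) := by
        rw [← hk1, ← hg']
        group
      have e2 : (k * g')⁻¹ * h * signCo0 c * ((k * g')⁻¹ * h)⁻¹ = permCo0 (el P2) := by
        calc (k * g')⁻¹ * h * signCo0 c * ((k * g')⁻¹ * h)⁻¹ = (k * g')⁻¹ * (h * signCo0 c * h⁻¹) * (k * g') := by group
          _ = (k * g')⁻¹ * ((k * g') * permCo0 (el P2) * (k * g')⁻¹) * (k * g') := by rw [hh1, e1]
          _ = permCo0 (el P2) := by group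
      have e3 : ((k * g')⁻¹ * h) • (g • v) = w0 := by
        rw [mul_smul, hh2]
        have e4 : (k * g') • w0 = w0 := by rw [mul_smul, hk2]
        conv_lhs => rw [← e4]
        rw [inv_smul_smul]
      rw [e2, e3]
      exact i3v_w0

/-- **`Co3`** -/
theorem i3_co3 {v : leechLattice} (hv : sqNorm (v : GolayPt → ℤ) = 48) {x : MulAction.stabilizer Co0 v}
    (hx : orderOf x = 2) : I3 x := by
  have hx2 : (x : Co0) * (x : Co0) = 1 := by
    have h1 := pow_orderOf_eq_one x
    rw [hx, pow_two] at h1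
    exact congrArg Subtype.val h1
  have hx1 : (x : Co0) ≠ 1 := by
    intro h1
    have h2 : x = 1 := Subtype.ext h1
    rw [h2, orderOf_one] at hx
    norm_num at hx
  obtain ⟨g, g1, g2, g3, g4⟩ := i3v_norm48 hx2 hx1 hv x.2
  exact ⟨⟨g, g4⟩, Subtype.ext g1, fun h => g2 (congrArg Subtype.val h), Subtype.ext g3⟩

end Cfsg.Agent.H518.PiB
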