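import Cfsg.Agent.H518.PiB.Co2Inv
import Cfsg.Agent.SigZeroCo2.Lin
import Cfsg.Agent.SporadicA.LeechMin

/-!
# Every involution of `Co3` inverts an element of order three (helper518, S3876)
-/

set_option autoImplicit false

namespace Cfsg.Agent.H518.PiB

open Cfsg Finset Cfsg.Agent.SporadicA.Co0Mono Cfsg.Agent.SporadicStructure.Co0Base
open Cfsg.Agent.SporadicA.Xi Cfsg.Agent.CoOneType.SignFacts
open Cfsg.Agent.SporadicStructure Cfsg.Agent.SporadicStructure.LeechBase
open Cfsg.Agent.SporadicA.GolayBase Cfsg.Agent.SporadicA.GolayPerm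
open Cfsg.Agent.SporadicStructure.M24El Cfsg.Agent.Co2Type.Mono
open Cfsg.Agent.SporadicStructure.MinShapes (vec)
open Cfsg.Agent.SporadicA.Co1Simple (allOne allOne_mem_center)
open Cfsg.Agent.J4.M24InvolData (P1 P2)
open Cfsg.Agent.J4.M24Invol (ok_P1 ok_P2 invol_conj)
open Cfsg.Agent.SigZeroCo2.Lin (mat rep lin Sp)
open XiThree (Sm)

/-! ### traces -/

theorem mat_mul (g h : Co0) : mat (g * h) = mat g * mat h := by
  apply Matrix.toLin'.injective
  rw [Matrix.toLin'_mul]
  have h1 := map_mul rep g h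
  exact h1

theorem trace_conj (g h : Co0) : (mat (h * g * h⁻¹)).trace = (mat g).trace := by
  rw [mat_mul, Matrix.trace_mul_comm, ← mat_mul, ← mul_assoc, inv_mul_cancel, one_mul]

theorem trace_sign (c : golayCode) : (mat (signCo0 c)).trace = 24 - 2 * (wt c : ℚ) := by
  classical
  have h1 : ∀ i, mat (signCo0 c) i i = 1 - 2 * (if i ∈ sup c then (1 : ℚ) else 0) := by
    intro i
    unfold mat
    rw [signCo0_smul, signMap_apply, e8_coe, Pi.single_eq_same]
    by_cases hi : i ∈ sup c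
    · rw [(mem_sup c i).1 hi, sgn_one, if_pos hi]
      norm_num
    · rw [(notMem_sup c i).1 hi, sgn_zero, if_neg hi]
      norm_num
  show ∑ i, mat (signCo0 c) i i = _
  rw [sum_congr rfl fun i _ => h1 i, sum_sub_distrib, ← mul_sum, sum_ite_mem, univ_inter, sum_const, sum_const,
    MinShapes.card_pt]
  simp [wt]

theorem trace_P2 : (mat (permCo0 (el P2))).trace = 0 := by
  show ∑ i, mat (permCo0 (el P2)) i i = 0
  refine sum_eq_zero fun i _ => ?_
  unfold mat
  rw [permCo0_smul, permMap_apply, e8_coe, Pi.single_eq_of_ne]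
  · norm_num
  · intro h
    have h1 : (el P2 : Equiv.Perm GolayPt) i = i := by
      conv_lhs => rw [← h]
      exact (el P2 : Equiv.Perm GolayPt).apply_symm_apply i
    have h2 : idx ((el P2 : Equiv.Perm GolayPt) i) = papp P2 (idx i) := by
      rw [coe_el ok_P2, idx_permOf]
    rw [h1] at h2
    have h3 : ∀ n, n < 24 → n ≠ papp P2 n := by decide +kernel
    exact h3 _ (idx_lt i) h2

/-! ### even functions on a set -/

theorem exists_even_of {O : Finset GolayPt} {j0 : GolayPt} (hj0 : j0 ∈ O)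
    (hp : ∀ j ∈ O.erase j0, ∃ d : golayCode, (d : GolayPt → ZMod 2) j = 1 ∧ (d : GolayPt → ZMod 2) j0 = 1 ∧
      ∀ i ∈ O, i ≠ j → i ≠ j0 → (d : GolayPt → ZMod 2) i = 0)
    (s : GolayPt → ZMod 2) (hs : ∑ j ∈ O, s j = 0) :
    ∃ d : golayCode, ∀ j ∈ O, (d : GolayPt → ZMod 2) j = s j := by
  classical
  have key : ∀ j, ∃ d : golayCode, j ∈ O.erase j0 → (d : GolayPt → ZMod 2) j = 1 ∧ (d : GolayPt → ZMod 2) j0 = 1 ∧
      ∀ i ∈ O, i ≠ j → i ≠ j0 → (d : GolayPt → ZMod 2) i = 0 := by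
    intro j
    by_cases hj : j ∈ O.erase j0
    · obtain ⟨d, hd⟩ := hp j hj
      exact ⟨d, fun _ => hd⟩
    · exact ⟨0, fun h => absurd h hj⟩
  choose D hD using key
  have hco : ∀ (F : Finset GolayPt) (i : GolayPt), ((∑ j ∈ F, s j • D j : golayCode) : GolayPt → ZMod 2) i =
      ∑ j ∈ F, s j * (D j : GolayPt → ZMod 2) i := by
    intro F i
    rw [Submodule.coe_sum, Finset.sum_apply]
    rfl
  refine ⟨∑ j ∈ O.erase j0, s j • D j, fun i hi => ?_⟩
  rw [hco]
  by_cases hi0 : i = j0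
  · subst hi0
    have h1 : ∑ j ∈ O.erase i, s j * (D j : GolayPt → ZMod 2) i = ∑ j ∈ O.erase i, s j :=
      sum_congr rfl fun j hj => by rw [(hD j hj).2.1, mul_one]
    rw [h1]
    have h2 := add_sum_erase O s hi
    rw [hs] at h2
    rw [← sub_eq_zero, sub_eq_add_neg, CharTwo.neg_eq, add_comm]
    exact h2
  · have hi' : i ∈ O.erase j0 := mem_erase.2 ⟨hi0, hi⟩
    rw [sum_eq_single i]
    · rw [(hD i hi').1, mul_one]
    · intro j hj hji
      rw [(hD j hj).2.2 i hi (Ne.symm hji) hi0, mul_zero]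
    · intro h
      exact absurd hi' h

/-- sums of indicator functions -/
theorem sum_ind {O A : Finset GolayPt} (hA : A ⊆ O) : ∑ j ∈ O, (if j ∈ A then (1 : ZMod 2) else 0) = (A.card : ZMod 2) := by
  classical
  rw [sum_ite_mem, inter_eq_right.2 hA, sum_const, nsmul_eq_mul, mul_one]

/-- the half of a lattice vector vanishing somewhere -/
theorem exists_half {v : leechLattice} {i : GolayPt} (hi : (v : GolayPt → ℤ) i = 0) :
    ∃ y : GolayPt → ℤ, (∀ j, (v : GolayPt → ℤ) j = 2 * y j) ∧ (∑ j, y j) % 4 = 0 ∧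
      (fun j => ((y j : ℤ) : ZMod 2)) ∈ golayCode := by
  rcases Cfsg.Agent.SporadicA.LeechMin.even_or_odd v.2 with h | ⟨m, z, hm, hz, -⟩
  · exact h
  · exfalso
    have := hz i
    omega

/-- **vectors of norm 48 vanishing on a word** -/
theorem six_cases {c : golayCode} (hc : wt c ≠ 0) {v : leechLattice} (hn : sqNorm (v : GolayPt → ℤ) = 48)
    (h0 : ∀ i ∈ sup c, (v : GolayPt → ℤ) i = 0) :
    ∃ (o : golayCode) (y : GolayPt → ℤ), (∀ j, (v : GolayPt → ℤ) j = 2 * y j) ∧ (∑ j, y j) % 4 = 0 ∧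
      Disjoint (sup c) (sup o) ∧
      ((wt o = 8 ∧ wt c = 8 ∧ (∀ j ∈ sup o, y j = 1 ∨ y j = -1) ∧
          ∃ p, p ∉ sup o ∧ p ∉ sup c ∧ (y p = 2 ∨ y p = -2) ∧ ∀ j, j ∉ sup o → j ≠ p → y j = 0) ∨
        (wt o = 12 ∧ wt c = 12 ∧ (∀ j ∈ sup o, y j = 1 ∨ y j = -1) ∧ ∀ j, j ∉ sup o → y j = 0)) := by
  classical
  obtain ⟨i0, hi0⟩ : (sup c).Nonempty := by
    rw [← card_pos]
    have : (sup c).card = wt c := rfl
    omega
  obtain ⟨y, hy, hs, hd⟩ := exists_half (h0 i0 hi0)
  have hn' : ∑ i, y i ^ 2 = 12 := by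
    have h1 : sqNorm (v : GolayPt → ℤ) = 4 * ∑ i, y i ^ 2 := by
      show ∑ i, (v : GolayPt → ℤ) i ^ 2 = _
      rw [mul_sum]
      refine sum_congr rfl fun i _ => ?_
      rw [hy]
      ring
    omega
  set o : golayCode := ⟨_, hd⟩ with ho
  have hodd : ∀ i, i ∈ sup o ↔ y i % 2 = 1 := by
    intro i
    rw [mem_sup]
    show ((y i : ℤ) : ZMod 2) = 1 ↔ _
    constructor
    · intro h
      have h2 : ((y i : ℤ) : ZMod 2) ≠ 0 := by rw [h]; decide
      rw [Ne, ZMod.intCast_zmod_eq_zero_iff_dvd] at h2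
      omega
    · intro h
      rcases zmod2_cases ((y i : ℤ) : ZMod 2) with h1 | h1
      · rw [ZMod.intCast_zmod_eq_zero_iff_dvd] at h1
        omega
      · exact h1
  have hyc : ∀ i ∈ sup c, y i = 0 := by
    intro i hi
    have h1 := h0 i hi
    rw [hy] at h1
    omega
  have hdis : Disjoint (sup c) (sup o) := by
    rw [disjoint_left]
    intro i hi hi'
    rw [hodd, hyc i hi] at hi'
    omega
  -- the weight of `o`
  have hsplit : ∑ i ∈ sup o, y i ^ 2 + ∑ i ∈ (sup o)ᶜ, y i ^ 2 = 12 := by rw [sum_add_sum_compl, hn']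
  have hnn : ∀ A : Finset GolayPt, 0 ≤ ∑ i ∈ A, y i ^ 2 := fun A => sum_nonneg fun i _ => sq_nonneg _
  have hge : ∀ i ∈ sup o, (1 : ℤ) ≤ y i ^ 2 := by
    intro i hi
    have h2 := (hodd i).1 hi
    have h3 : y i ≠ 0 := by omega
    have : 0 < y i ^ 2 := by positivity
    omega
  have hcardle : ((sup o).card : ℤ) ≤ ∑ i ∈ sup o, y i ^ 2 := by
    have h1 := card_nsmul_le_sum (sup o) _ _ hge
    rwa [nsmul_eq_mul, mul_one] at h1
  have hwo : (sup o).card = wt o := rfl
  have hwc : (sup c).card = wt c := rfl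
  -- the symmetric difference with `c`
  have hsd : ((sup o).card + (sup c).card : ℕ) = 0 ∨ (sup o).card + (sup c).card = 8 ∨
      (sup o).card + (sup c).card = 12 ∨ (sup o).card + (sup c).card = 16 ∨ (sup o).card + (sup c).card = 24 := by
    have h2 := card_symmDiff_add (sup o) (sup c)
    rw [disjoint_iff_inter_eq_empty.1 hdis.symm, card_empty] at h2
    have h3 := card_of_mem_supports (symmDiff_mem_supports (sup_mem o) (sup_mem c))
    omega
  have hwo_le : wt o ≤ 12 := by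
    have h1 := hnn (sup o)ᶜ
    rw [hwo] at hcardle
    omega
  have hone : ∀ i ∈ sup o, 7 ≤ (sup o).card - 1 → y i = 1 ∨ y i = -1 := by
    intro i hi h7
    have h2 : y i ^ 2 + ∑ k ∈ (sup o).erase i, y k ^ 2 = ∑ k ∈ sup o, y k ^ 2 :=
      add_sum_erase (sup o) (fun k => y k ^ 2) hi
    have h3 : ((sup o).erase i).card • (1 : ℤ) ≤ ∑ k ∈ (sup o).erase i, y k ^ 2 :=
      card_nsmul_le_sum _ _ _ fun k hk => hge k (mem_of_mem_erase hk)
    rw [card_erase_of_mem hi, nsmul_eq_mul, mul_one] at h3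
    have h5 : (7 : ℤ) ≤ (((sup o).card - 1 : ℕ) : ℤ) := by exact_mod_cast h7
    have h6 := hnn (sup o)ᶜ
    have h9 : y i ^ 2 ≤ 5 := by linarith
    have h10 : y i ≤ 2 := by nlinarith
    have h11 : -2 ≤ y i := by nlinarith
    have h12 := (hodd i).1 hi
    omega
  refine ⟨o, y, hy, hs, hdis, ?_⟩
  rcases wt_cases o with h | h | h | h | h
  · -- all even: impossible
    exfalso
    have hall : ∀ i, ∃ z : ℤ, y i = 2 * z := by
      intro i
      have h1 : i ∉ sup o := by
        have h2 : sup o = ∅ := card_eq_zero.1 h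
        rw [h2]; simp
      rw [hodd] at h1
      exact ⟨y i / 2, by omega⟩
    choose z hz2 using hall
    have hzn : ∑ i, z i ^ 2 = 3 := by
      have h1 : ∑ i, y i ^ 2 = 4 * ∑ i, z i ^ 2 := by
        rw [mul_sum]
        refine sum_congr rfl fun i _ => ?_
        rw [hz2]
        ring
      omega
    have hzs : (∑ i, z i) % 2 = 0 := by
      have h1 : ∑ i, y i = 2 * ∑ i, z i := by
        rw [mul_sum]
        exact sum_congr rfl fun i _ => hz2 i
      omega
    have h2 : (∑ i, z i ^ 2) % 2 = (∑ i, z i) % 2 := by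
      rw [sum_int_mod, sum_int_mod (f := z)]
      congr 1
      refine sum_congr rfl fun i _ => ?_
      rcases Int.emod_two_eq_zero_or_one (z i) with h | h
      · rw [pow_two, Int.mul_emod, h]; rfl
      · rw [pow_two, Int.mul_emod, h]; rfl
    omega
  · left
    have hone' : ∀ j ∈ sup o, y j = 1 ∨ y j = -1 := fun j hj => hone j hj (by omega)
    have hs8 : ∑ i ∈ sup o, y i ^ 2 = 8 := by
      have h1 : ∑ i ∈ sup o, y i ^ 2 = ∑ i ∈ sup o, 1 := by
        refine sum_congr rfl fun i hi => ?_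
        rcases hone' i hi with h | h <;> rw [h] <;> norm_num
      rw [h1, sum_const, hwo, h]
      norm_num
    rw [hs8] at hsplit
    have hs4 : ∑ i ∈ (sup o)ᶜ, y i ^ 2 = 4 := by omega
    obtain ⟨p, hp, hyp⟩ : ∃ p ∈ (sup o)ᶜ, y p ≠ 0 := by
      by_contra hcon
      push Not at hcon
      rw [sum_eq_zero fun i hi => by rw [hcon i hi]; rfl] at hs4
      omega
    have hpo : p ∉ sup o := mem_compl.1 hp
    have hpe : y p % 2 = 0 := by
      rw [hodd] at hpo
      omega
    have h3 := add_sum_erase (sup o)ᶜ (fun k => y k ^ 2) hp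
    have h4 := hnn ((sup o)ᶜ.erase p)
    have h5 : y p ^ 2 + ∑ k ∈ (sup o)ᶜ.erase p, y k ^ 2 = 4 := h3.trans hs4
    have h6 : y p ≤ 2 := by nlinarith
    have h7 : -2 ≤ y p := by nlinarith
    have h8 : y p = 2 ∨ y p = -2 := by omega
    have h9 : ∑ k ∈ (sup o)ᶜ.erase p, y k ^ 2 = 0 := by
      rcases h8 with h | h <;> rw [h] at h5 <;> linarith
    have hz : ∀ j, j ∉ sup o → j ≠ p → y j = 0 := by
      intro j hj hjp
      have h10 := (sum_eq_zero_iff_of_nonneg (fun i _ => sq_nonneg (y i))).1 h9 j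
        (mem_erase.2 ⟨hjp, mem_compl.2 hj⟩)
      exact pow_eq_zero_iff (two_ne_zero) |>.1 h10
    refine ⟨h, ?_, hone', p, hpo, ?_, h8, hz⟩
    · -- the weight of `c`
      have h10 := wt_cases c
      have h11 : wt c ≠ 16 := by
        intro h12
        have h13 : (sup c ∪ sup o).card = 24 := by
          rw [card_union_of_disjoint hdis]
          omega
        have h14 : sup c ∪ sup o = univ := by
          apply eq_univ_of_card
          rw [h13]
          decide
        have h15 : p ∈ sup c ∪ sup o := by rw [h14]; exact mem_univ p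
        rcases mem_union.1 h15 with h16 | h16
        · exact hyp (hyc p h16)
        · exact hpo h16
      omega
    · intro h10
      exact hyp (hyc p h10)
  · right
    have hone' : ∀ j ∈ sup o, y j = 1 ∨ y j = -1 := fun j hj => hone j hj (by omega)
    have hs12 : ∑ i ∈ sup o, y i ^ 2 = 12 := by
      have h1 : ∑ i ∈ sup o, y i ^ 2 = ∑ i ∈ sup o, 1 := by
        refine sum_congr rfl fun i hi => ?_
        rcases hone' i hi with h | h <;> rw [h] <;> norm_num
      rw [h1, sum_const, hwo, h]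
      norm_num
    rw [hs12] at hsplit
    have hs0 : ∑ i ∈ (sup o)ᶜ, y i ^ 2 = 0 := by omega
    refine ⟨h, ?_, hone', fun j hj => ?_⟩
    · have h10 := wt_cases c
      omega
    · have h10 := (sum_eq_zero_iff_of_nonneg (fun i _ => sq_nonneg (y i))).1 hs0 j (mem_compl.2 hj)
      exact pow_eq_zero_iff (two_ne_zero) |>.1 h10
  · omega
  · omega

end Cfsg.Agent.H518.PiB
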