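import Cfsg.Agent.H799.PiBS.Inv3
import Cfsg.Agent.TypeM.OutLyFin

/-!
# `Inv3` for the Lyons group (helper518, S3876)

One class of involutions, `C(t) = 2.A₁₁`.
-/

set_option autoImplicit false

namespace Cfsg.Agent.H518.PiB

open Subgroup Cfsg Cfsg.Agent.H799.PiBS
open Cfsg.Agent.TypeM.Two Cfsg.Agent.Ly.Final Cfsg.Agent.Ly.Pres

universe u

/-- an involution of `A_n` with a fixed point and a commutator of order three -/
theorem exists_comm_three {n : ℕ} (s : ↥(alternatingGroup (Fin n))) (hs : s * s = 1) (hs1 : s ≠ 1) {c : Fin n}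
    (hc : (s : Equiv.Perm (Fin n)) c = c) : ∃ a : ↥(alternatingGroup (Fin n)), orderOf (s * a * s⁻¹ * a⁻¹) = 3 := by
  classical
  obtain ⟨σ, hσ⟩ : ∃ σ : Equiv.Perm (Fin n), σ = (s : Equiv.Perm (Fin n)) := ⟨_, rfl⟩
  rw [← hσ] at hc
  have hσσ : ∀ i, σ (σ i) = i := fun i => by
    have := congrArg (fun f : ↥(alternatingGroup (Fin n)) => (f : Equiv.Perm (Fin n)) i) hs
    rw [hσ]
    exact this
  obtain ⟨a1, ha1⟩ : ∃ a, σ a ≠ a := by
    by_contra hcon
    push Not at hcon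
    exact hs1 (Subtype.ext (hσ.symm.trans (Equiv.ext hcon)))
  obtain ⟨a2, ha2, h21, h22⟩ : ∃ a, σ a ≠ a ∧ a ≠ a1 ∧ a ≠ σ a1 := by
    by_contra hcon
    push Not at hcon
    have h1 : σ = Equiv.swap a1 (σ a1) := by
      ext i
      by_cases h2 : i = a1
      · rw [h2, Equiv.swap_apply_left]
      · by_cases h3 : i = σ a1
        · rw [h3, hσσ, Equiv.swap_apply_right]
        · rw [Equiv.swap_apply_of_ne_of_ne h2 h3]
          by_contra h4
          exact h3 (hcon i (fun h5 => h4 (by rw [h5])) h2)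
    have h2 : Equiv.Perm.sign σ = 1 := by
      rw [hσ]
      exact Equiv.Perm.mem_alternatingGroup.1 s.2
    rw [h1, Equiv.Perm.sign_swap (Ne.symm ha1)] at h2
    exact absurd h2 (by decide)
  have hinj := σ.injective
  have k1 : c ≠ a1 := fun h => ha1 (h ▸ hc)
  have k2 : c ≠ σ a1 := fun h => ha1 (by
    have : σ c = a1 := by rw [h, hσσ]
    rw [hc] at this
    exact absurd this k1)
  have k3 : c ≠ a2 := fun h => ha2 (h ▸ hc)
  have k4 : c ≠ σ a2 := fun h => ha2 (by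
    have : σ c = a2 := by rw [h, hσσ]
    rw [hc] at this
    exact absurd this k3)
  have k5 : σ a2 ≠ a1 := fun h => h22 (by rw [← h, hσσ])
  have k6 : σ a2 ≠ σ a1 := fun h => h21 (hinj h)
  -- the conjugator
  have hmem : Equiv.swap (σ a1) c * Equiv.swap a2 (σ a2) ∈ alternatingGroup (Fin n) := by
    rw [Equiv.Perm.mem_alternatingGroup, map_mul, Equiv.Perm.sign_swap (Ne.symm k2), Equiv.Perm.sign_swap (Ne.symm ha2)]
    decide
  refine ⟨⟨_, hmem⟩, ?_⟩
  have h1 : ((s * ⟨_, hmem⟩ * s⁻¹ * (⟨_, hmem⟩ : ↥(alternatingGroup (Fin n)))⁻¹ : ↥(alternatingGroup (Fin n))) :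
      Equiv.Perm (Fin n)) = Equiv.swap a1 c * Equiv.swap (σ a1) c := by
    show (s : Equiv.Perm (Fin n)) * (Equiv.swap (σ a1) c * Equiv.swap a2 (σ a2)) * (s : Equiv.Perm (Fin n))⁻¹ *
      (Equiv.swap (σ a1) c * Equiv.swap a2 (σ a2))⁻¹ = _
    rw [← hσ]
    have h2 : σ * (Equiv.swap (σ a1) c * Equiv.swap a2 (σ a2)) * σ⁻¹ = Equiv.swap a1 c * Equiv.swap (σ a2) a2 := by
      have h3 : σ * (Equiv.swap (σ a1) c * Equiv.swap a2 (σ a2)) * σ⁻¹ =
          (σ * Equiv.swap (σ a1) c * σ⁻¹) * (σ * Equiv.swap a2 (σ a2) * σ⁻¹) := by group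
      rw [h3, ← Equiv.swap_apply_apply, ← Equiv.swap_apply_apply, hσσ, hσσ, hc]
    rw [h2, mul_inv_rev, Equiv.swap_inv, Equiv.swap_inv, Equiv.swap_comm (σ a2) a2]
    calc Equiv.swap a1 c * Equiv.swap a2 (σ a2) * (Equiv.swap a2 (σ a2) * Equiv.swap (σ a1) c) =
        Equiv.swap a1 c * (Equiv.swap a2 (σ a2) * Equiv.swap a2 (σ a2)) * Equiv.swap (σ a1) c := by group
      _ = _ := by rw [Equiv.swap_mul_self, mul_one]
  rw [← Subgroup.orderOf_coe, h1]
  rw [Equiv.swap_comm a1 c, Equiv.swap_comm (σ a1) c]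
  exact (Equiv.Perm.isThreeCycle_swap_mul_swap_same k1 k2 (Ne.symm ha1)).orderOf

/-- an involution of `A_n`, `n` odd, has a commutator of order three -/
theorem exists_comm_three_odd {n : ℕ} (hn : ¬ 2 ∣ n) (s : ↥(alternatingGroup (Fin n))) (hs : s * s = 1)
    (hs1 : s ≠ 1) : ∃ a : ↥(alternatingGroup (Fin n)), orderOf (s * a * s⁻¹ * a⁻¹) = 3 := by
  have : Fact (Nat.Prime 2) := ⟨Nat.prime_two⟩
  obtain ⟨c, hc⟩ := Equiv.Perm.exists_fixed_point_of_prime (p := 2) (n := 1) (α := Fin n)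
    (by rwa [Fintype.card_fin]) (σ := (s : Equiv.Perm (Fin n))) (by
      rw [pow_one, pow_two]
      exact congrArg Subtype.val hs)
  exact exists_comm_three s hs hs1 hc

/-- one class of involutions, `C(t) = 2.A_n`, `n` odd -/
theorem bad_of_cover {G : Type*} [Group G] [Finite G] [IsSimpleGroup G] {n : ℕ} (hn5 : 5 ≤ n)
    (hn : n < 16) (h2 : ¬ 2 ∣ n) (t : G) (ht : orderOf t = 2)
    (hcov : Cfsg.IsNonsplitDoubleCover (centralizer ({t} : Set G)) (alternatingGroup (Fin n)))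
    {x : G} (hxx : x * x = 1) (hx1 : x ≠ 1) : Bad (MulAut.conj x) := by
  obtain ⟨-, π, h, u, huu, hu1, hut, hcomm, -⟩ := Cfsg.Agent.SporRec.LyReduce.reduce n hn5 t ht hcov
  obtain ⟨L, hL⟩ := exists_mt hn5 hn t ht hcov
  obtain ⟨g, hg⟩ := L.conj_of_involutions huu hu1 hxx hx1
  refine Bad.inner (s := u) ?_ (isConj_iff.2 ⟨g, hg⟩)
  set u' : ↥(centralizer ({t} : Set G)) := ⟨u, mem_centralizer_singleton_iff.2 hcomm⟩ with hu'
  have hs : π u' * π u' = 1 := by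
    rw [← map_mul]
    have h3 : u' * u' = 1 := Subtype.ext huu
    rw [h3, map_one]
  have hs1 : π u' ≠ 1 := by
    intro h3
    rcases (h.ker u').1 h3 with h4 | h4
    · exact hu1 (congrArg Subtype.val h4)
    · exact hut (congrArg Subtype.val h4)
  obtain ⟨a, ha⟩ := exists_comm_three_odd h2 (π u') hs hs1
  obtain ⟨a', rfl⟩ := h.surj a
  rw [← map_inv, ← map_inv, ← map_mul, ← map_mul, ← map_mul] at ha
  refine ⟨(a' : G), ?_⟩
  have h4 : 3 ∣ orderOf (u' * a' * u'⁻¹ * a'⁻¹) := ha ▸ orderOf_map_dvd π _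
  rw [← Subgroup.orderOf_coe] at h4
  exact h4

/-- **the Lyons group** -/
theorem inv3_ly {K : Type u} [Group K] (h : Cfsg.Spor.IsoLy K) : Inv3 K := by
  obtain ⟨e⟩ := h
  have hfin : Finite Cfsg.Spor.Ly := Cfsg.Agent.Ly.Setup.finite_ly
  have hs : IsSimpleGroup Cfsg.Spor.Ly := Cfsg.Agent.Ly.Setup.isSimple_ly
  refine Inv3.congr e (Inv3.of_inner ?_ (fun x => ?_) fun t ht ht1 => ?_)
  · exact center_bot (by rw [Cfsg.Agent.Ly.Setup.card_ly]; norm_num)
  · obtain ⟨a, ha⟩ := Cfsg.Agent.TypeM.OutLyFin.inner_ly x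
    exact ⟨a, ha.symm⟩
  · exact bad_of_cover (n := 11) (by norm_num) (by norm_num) (by norm_num) _ (tw_order hs)
      Cfsg.Agent.TypeM.FactsLy.isNonsplit_ly ht ht1

end Cfsg.Agent.H518.PiB
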