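import Cfsg.Agent.H465.PiBSSporB
import Cfsg.Agent.Solvable.Carter
import Cfsg.Agent.H355.Fixity

/-!
# Subgroups of order divisible by `2^11·5^2` of the Tits group (helper518, S3876)

`TC X` : orders of centralisers; `TC.not_solvable` : a solvable subgroup of order prime to 3 is not divisible by `2^11·5^2`.
-/

set_option autoImplicit false
set_option linter.style.haveILetI false

namespace Cfsg.Agent.H518.PiB

open Subgroup Cfsg

universe u v

/-- centralisers in the Tits group -/
structure TC (X : Type*) [Group X] : Prop where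
  card : Nat.card X = 2 ^ 11 * 3 ^ 3 * 5 ^ 2 * 13
  cent : ∀ y : X, orderOf y = 5 → Nat.card ↥(centralizer ({y} : Set X)) = 50
  ten : ∀ y : X, orderOf y = 5 → ∀ i : X, orderOf i = 2 → i * y = y * i →
    Nat.card ↥(centralizer ({y} : Set X) ⊓ centralizer ({i} : Set X)) = 10

variable {X : Type u} [Group X] [Finite X]

/-- the action by conjugation on the nontrivial elements of a subgroup -/
@[reducible] def actNT {P V : Subgroup X} (h : P ≤ normalizer (V : Set X)) :
    MulAction P {v : X // v ∈ V ∧ v ≠ 1} where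
  smul g v := ⟨(g : X) * v * (g : X)⁻¹, (mem_normalizer_iff.1 (h g.2) v).1 v.2.1, fun h1 => v.2.2 (by
    rw [mul_inv_eq_one] at h1
    exact mul_left_cancel (h1.trans (mul_one _).symm))⟩
  one_smul v := Subtype.ext (by show ((1 : P) : X) * v * ((1 : P) : X)⁻¹ = v; simp)
  mul_smul g k v := Subtype.ext (by
    show ((g * k : P) : X) * v * ((g * k : P) : X)⁻¹ = (g : X) * ((k : X) * v * (k : X)⁻¹) * (g : X)⁻¹
    rw [coe_mul]; group)

theorem card_nt (V : Subgroup X) : Nat.card {v : X // v ∈ V ∧ v ≠ 1} + 1 = Nat.card V := by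
  have h1 : Nat.card {v : X // v ∈ V ∧ v ≠ 1} = ((V : Set X) \ {1}).ncard := rfl
  have h2 : Nat.card V = (V : Set X).ncard := rfl
  rw [h1, h2, Set.ncard_diff_singleton_add_one V.one_mem]

/-- a free action of `P` on `V ∖ 1` -/
theorem dvd_of_free {P V : Subgroup X} (h : P ≤ normalizer (V : Set X))
    (hf : ∀ g ∈ P, g ≠ 1 → ∀ v ∈ V, v ≠ 1 → g * v ≠ v * g) : Nat.card P ∣ Nat.card V - 1 := by
  letI := actNT h
  have h1 : Nat.card P ∣ Nat.card {v : X // v ∈ V ∧ v ≠ 1} := by
    refine Cfsg.Agent.H355.card_dvd_of_free fun a => ?_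
    rw [eq_bot_iff]
    intro g hg
    rw [MulAction.mem_stabilizer_iff] at hg
    have h2 : (g : X) * a * (g : X)⁻¹ = a := congrArg Subtype.val hg
    rw [mem_bot]
    by_contra hg1
    exact hf g g.2 (fun h3 => hg1 (Subtype.ext h3)) a a.2.1 a.2.2 (mul_inv_eq_iff_eq_mul.1 h2)
  have h2 := card_nt V
  rwa [← h2, Nat.add_sub_cancel]

namespace TC

/-- an element of order 5 among the powers of an element of a group of order 25 -/
theorem exists_five {P : Subgroup X} (hP : Nat.card P = 25) {g : X} (hg : g ∈ P) (hg1 : g ≠ 1) :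
    ∃ n : ℕ, orderOf (g ^ n) = 5 := by
  have h1 : orderOf g ∣ 5 ^ 2 := by
    have h2 := orderOf_dvd_natCard (⟨g, hg⟩ : P)
    rw [Subgroup.orderOf_mk, hP] at h2
    exact h2
  obtain ⟨k, hk, hk'⟩ := (Nat.dvd_prime_pow Nat.prime_five).1 h1
  have hk0 : k ≠ 0 := by
    rintro rfl
    rw [pow_zero, orderOf_eq_one_iff] at hk'
    exact hg1 hk'
  obtain ⟨i, rfl⟩ : ∃ i, k = i + 1 := ⟨k - 1, by omega⟩
  refine ⟨5 ^ i, ?_⟩
  rw [orderOf_pow_of_dvd (pow_pos (by norm_num) i).ne' ⟨5, by rw [hk', pow_succ]⟩, hk', pow_succ,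
    Nat.mul_div_cancel_left _ (pow_pos (by norm_num) i)]

variable (T : TC X)
include T

/-- `P` of order 25 acts freely on a 2-group -/
theorem two {P V : Subgroup X} (hP : Nat.card P = 25) (h : P ≤ normalizer (V : Set X)) (hV : IsPGroup 2 V) :
    V = ⊥ := by
  have hcomm : ∀ a ∈ P, ∀ b ∈ P, a * b = b * a := by
    haveI : Fact (Nat.Prime 5) := ⟨Nat.prime_five⟩
    have h1 : IsMulCommutative P := IsPGroup.isMulCommutative_of_card_eq_prime_sq (p := 5) (by rw [hP]; norm_num)
    intro a ha b hb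
    exact congrArg Subtype.val (h1.is_comm.comm (⟨a, ha⟩ : P) ⟨b, hb⟩)
  have hdvd := dvd_of_free h (by
    intro g hg hg1 v hv hv1 hc
    obtain ⟨n, hn⟩ := exists_five hP hg hg1
    set y := g ^ n with hy
    have hyP : y ∈ P := P.pow_mem hg n
    have hyv : y * v = v * y := ((show Commute g v from hc).pow_left n).eq
    -- `C_V(y)`
    set W : Subgroup X := V ⊓ centralizer ({y} : Set X) with hW
    have hvW : v ∈ W := ⟨hv, mem_centralizer_singleton_iff.2 hyv.symm⟩
    have hW2 : IsPGroup 2 W := hV.to_le inf_le_left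
    obtain ⟨k, hk⟩ := hW2.exists_card_eq
    have hWd : Nat.card W ∣ 50 := by
      rw [← T.cent y hn]
      exact card_dvd_of_le inf_le_right
    have hk1 : k ≤ 1 := by
      by_contra hk2
      have h4 : 2 ^ 2 ∣ 50 := by
        rw [hk] at hWd
        exact (pow_dvd_pow 2 (by omega)).trans hWd
      norm_num at h4
    have hk0 : k ≠ 0 := by
      rintro rfl
      rw [pow_zero, card_eq_one] at hk
      rw [hk, mem_bot] at hvW
      exact hv1 hvW
    obtain rfl : k = 1 := by omega
    rw [pow_one] at hk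
    -- `P` centralises `v`
    have hWel : ∀ w ∈ W, w ≠ 1 → w = v := by
      intro w hw hw1
      by_contra hne
      have h6 : ({1, v, w} : Set X) ⊆ W := by
        rintro u (rfl | rfl | rfl)
        · exact one_mem W
        · exact hvW
        · exact hw
      have h7 : ({1, v, w} : Set X).ncard = 3 := by
        rw [Set.ncard_insert_of_notMem, Set.ncard_pair (Ne.symm hne)]
        rintro (h8 | h8)
        · exact hv1 h8.symm
        · exact hw1 h8.symm
      have h8 := Set.ncard_le_ncard h6 (Set.toFinite _)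
      have h9 : (W : Set X).ncard = 2 := hk
      omega
    have hPv : ∀ p ∈ P, p * v = v * p := by
      intro p hp
      have h5 : p * v * p⁻¹ ∈ W := by
        refine ⟨(mem_normalizer_iff.1 (h hp) v).1 hv, mem_centralizer_singleton_iff.2 ?_⟩
        have h6 := hcomm p hp y hyP
        calc p * v * p⁻¹ * y = p * v * (p⁻¹ * y) := by group
          _ = p * v * (y * p⁻¹) := by
            rw [show p⁻¹ * y = y * p⁻¹ by rw [inv_mul_eq_iff_eq_mul, ← mul_assoc, h6, mul_inv_cancel_right]]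
          _ = p * (v * y) * p⁻¹ := by group
          _ = p * (y * v) * p⁻¹ := by rw [hyv]
          _ = (p * y) * v * p⁻¹ := by group
          _ = (y * p) * v * p⁻¹ := by rw [h6]
          _ = y * (p * v * p⁻¹) := by group
      have h7 := hWel _ h5 (fun h8 => hv1 (by
        rw [mul_inv_eq_one] at h8
        exact mul_left_cancel (h8.trans (mul_one _).symm)))
      exact mul_inv_eq_iff_eq_mul.1 h7
    have hv2 : orderOf v = 2 := by
      have h5 := orderOf_dvd_natCard (⟨v, hvW⟩ : W)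
      rw [Subgroup.orderOf_mk, hk] at h5
      rcases (Nat.dvd_prime Nat.prime_two).1 h5 with h6 | h6
      · exact absurd (orderOf_eq_one_iff.1 h6) hv1
      · exact h6
    have h10 := T.ten y hn v hv2 hyv.symm
    have h11 : P ≤ centralizer ({y} : Set X) ⊓ centralizer ({v} : Set X) := fun p hp =>
      ⟨mem_centralizer_singleton_iff.2 (hcomm p hp y hyP), mem_centralizer_singleton_iff.2 (hPv p hp)⟩
    have h12 := card_dvd_of_le h11
    rw [h10, hP] at h12
    norm_num at h12)
  rw [hP] at hdvd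
  obtain ⟨m, hm⟩ := hV.exists_card_eq
  have hm11 : m ≤ 11 := by
    by_contra hlt
    have h1 : 2 ^ 12 ∣ Nat.card X := (pow_dvd_pow 2 (by omega)).trans (hm ▸ card_subgroup_dvd_card V)
    rw [T.card] at h1
    norm_num at h1
  have hall : ∀ m, m ≤ 11 → 25 ∣ 2 ^ m - 1 → m = 0 := by decide
  rw [hm] at hdvd
  have h0 := hall m hm11 hdvd
  rw [h0, pow_zero] at hm
  exact card_eq_one.1 hm

/-- `P` of order 25 and 13-groups -/
theorem thirteen {P V : Subgroup X} (hP : Nat.card P = 25) (h : P ≤ normalizer (V : Set X)) (hV : IsPGroup 13 V) :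
    V = ⊥ := by
  haveI : Fact (Nat.Prime 13) := ⟨by norm_num⟩
  have hdvd := dvd_of_free h (by
    intro g hg hg1 v hv hv1 hc
    obtain ⟨n, hn⟩ := exists_five hP hg hg1
    set y := g ^ n with hy
    have hyv : y * v = v * y := ((show Commute g v from hc).pow_left n).eq
    set W : Subgroup X := V ⊓ centralizer ({y} : Set X) with hW
    have hvW : v ∈ W := ⟨hv, mem_centralizer_singleton_iff.2 hyv.symm⟩
    have hW2 : IsPGroup 13 W := hV.to_le inf_le_left
    obtain ⟨k, hk⟩ := hW2.exists_card_eq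
    have hWd : Nat.card W ∣ 50 := by
      rw [← T.cent y hn]
      exact card_dvd_of_le inf_le_right
    have hk0 : k ≠ 0 := by
      rintro rfl
      rw [pow_zero, card_eq_one] at hk
      rw [hk, mem_bot] at hvW
      exact hv1 hvW
    have h4 : 13 ∣ 50 := by
      rw [hk] at hWd
      exact (dvd_pow_self 13 hk0).trans hWd
    norm_num at h4)
  rw [hP] at hdvd
  obtain ⟨m, hm⟩ := hV.exists_card_eq
  have hm1 : m ≤ 1 := by
    by_contra hlt
    have h1 : 13 ^ 2 ∣ Nat.card X := (pow_dvd_pow 13 (by omega)).trans (hm ▸ card_subgroup_dvd_card V)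
    rw [T.card] at h1
    norm_num at h1
  have hall : ∀ m, m ≤ 1 → 25 ∣ 13 ^ m - 1 → m = 0 := by decide
  rw [hm] at hdvd
  have h0 := hall m hm1 hdvd
  rw [h0, pow_zero] at hm
  exact card_eq_one.1 hm

/-- a Sylow 2-subgroup normalises no 5-group -/
theorem five {Q V : Subgroup X} (hQ : Nat.card Q = 2 ^ 11) (h : Q ≤ normalizer (V : Set X)) (hV : IsPGroup 5 V) :
    V = ⊥ := by
  classical
  haveI : Fact (Nat.Prime 5) := ⟨Nat.prime_five⟩
  obtain ⟨m, hm⟩ := hV.exists_card_eq
  have hm2 : m ≤ 2 := by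
    by_contra hlt
    have h1 : 5 ^ 3 ∣ Nat.card X := (pow_dvd_pow 5 (by omega)).trans (hm ▸ card_subgroup_dvd_card V)
    rw [T.card] at h1
    norm_num at h1
  by_contra hne
  have h5 : 5 ∣ Nat.card V := by
    rw [hm]
    refine dvd_pow_self 5 ?_
    rintro rfl
    rw [pow_zero, card_eq_one] at hm
    exact hne hm
  obtain ⟨y, hy⟩ := exists_prime_orderOf_dvd_card' (G := V) 5 h5
  have hy' : orderOf (y : X) = 5 := by rw [orderOf_coe, hy]
  have hy1 : (y : X) ≠ 1 := by
    intro h1
    rw [h1, orderOf_one] at hy'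
    norm_num at hy'
  letI := actNT h
  set ω : {v : X // v ∈ V ∧ v ≠ 1} := ⟨y, y.2, hy1⟩ with hω
  have h1 : Nat.card (MulAction.orbit Q ω) * Nat.card (MulAction.stabilizer Q ω) = 2 ^ 11 := by
    rw [← hQ]
    exact Nat.card_congr (MulAction.orbitProdStabilizerEquivGroup Q ω) ▸ (Nat.card_prod _ _).symm
  have h2 : Nat.card (MulAction.orbit Q ω) ≤ 24 := by
    have h3 : Nat.card (MulAction.orbit Q ω) ≤ Nat.card {v : X // v ∈ V ∧ v ≠ 1} :=
      Nat.card_le_card_of_injective _ Subtype.val_injective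
    have h4 := card_nt V
    have h6 : Nat.card V ≤ 25 := by
      rw [hm]
      calc 5 ^ m ≤ 5 ^ 2 := Nat.pow_le_pow_right (by norm_num) hm2
        _ = 25 := by norm_num
    omega
  -- the stabiliser
  have h3 : Nat.card (MulAction.stabilizer Q ω) ∣ 50 := by
    rw [← T.cent (y : X) hy', ← card_map_of_injective (f := Q.subtype) Q.subtype_injective]
    refine card_dvd_of_le ?_
    rintro _ ⟨g, hg, rfl⟩
    have h4 : (g : X) * y * (g : X)⁻¹ = y := congrArg Subtype.val (MulAction.mem_stabilizer_iff.1 hg)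
    exact mem_centralizer_singleton_iff.2 (mul_inv_eq_iff_eq_mul.1 h4)
  obtain ⟨k, hk, hk'⟩ := (Nat.dvd_prime_pow Nat.prime_two).1 (Dvd.intro_left _ h1)
  have h4 : k ≤ 1 := by
    by_contra hlt
    rw [hk'] at h3
    have h7 : 2 ^ 2 ∣ 50 := (pow_dvd_pow 2 (by omega)).trans h3
    norm_num at h7
  rw [hk'] at h1
  have h7 : Nat.card (MulAction.orbit Q ω) * 2 ^ k ≤ 24 * 2 := by
    refine Nat.mul_le_mul h2 ?_
    calc 2 ^ k ≤ 2 ^ 1 := Nat.pow_le_pow_right (by norm_num) h4
      _ = 2 := by norm_num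
  rw [h1] at h7
  norm_num at h7

/-- **no solvable subgroup of order prime to 3 and divisible by `2^11·5^2`** -/
theorem not_solvable {H : Subgroup X} (h2 : 2 ^ 11 ∣ Nat.card H) (h5 : 5 ^ 2 ∣ Nat.card H) (h3 : ¬ 3 ∣ Nat.card H) :
    ¬ Group.IsSolvable H := by
  intro hsol
  haveI : Fact (Nat.Prime 2) := ⟨Nat.prime_two⟩
  haveI : Fact (Nat.Prime 5) := ⟨Nat.prime_five⟩
  have hnt : Nontrivial H := by
    rw [← Finite.one_lt_card_iff_nontrivial]
    have := Nat.le_of_dvd Nat.card_pos h2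
    omega
  obtain ⟨Q, hQ⟩ := Sylow.exists_subgroup_card_pow_prime 2 h2
  obtain ⟨P, hP⟩ := Sylow.exists_subgroup_card_pow_prime 5 h5
  obtain ⟨p, N, hp, hN, hNp, -, hN1, -⟩ := Cfsg.Agent.Solvable.Carter.exists_min_normal H
  have hNn : ∀ K : Subgroup H, K.map H.subtype ≤ normalizer ((N.map H.subtype : Subgroup X) : Set X) := by
    intro K
    rintro _ ⟨k, -, rfl⟩
    rw [mem_normalizer_iff]
    intro x
    constructor
    · rintro ⟨n, hn, rfl⟩
      exact ⟨k * n * k⁻¹, hN.conj_mem n hn k, by simp⟩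
    · rintro ⟨n, hn, hx⟩
      refine ⟨k⁻¹ * n * k, by simpa using hN.conj_mem n hn k⁻¹, ?_⟩
      rw [map_mul, map_mul, map_inv, hx]
      show (k : X)⁻¹ * ((k : X) * x * (k : X)⁻¹) * k = x
      group
  have hNm : IsPGroup p (N.map H.subtype) := hNp.map _
  have hpN : p ∣ Nat.card N := by
    haveI : Fact p.Prime := ⟨hp⟩
    obtain ⟨k, hk⟩ := hNp.exists_card_eq
    rw [hk]
    refine dvd_pow_self p ?_
    rintro rfl
    rw [pow_zero, card_eq_one] at hk
    exact hN1 hk
  have hpH : p ∣ Nat.card H := hpN.trans (card_subgroup_dvd_card N)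
  have hpX : p ∣ 2 ^ 11 * 3 ^ 3 * 5 ^ 2 * 13 := by
    rw [← T.card]
    exact hpH.trans (card_subgroup_dvd_card H)
  have hne : N.map H.subtype ≠ ⊥ := fun h => hN1 ((map_eq_bot_iff_of_injective _ H.subtype_injective).1 h)
  have hPc : Nat.card (P.map H.subtype) = 25 := by
    rw [card_map_of_injective H.subtype_injective, hP]
    norm_num
  have hQc : Nat.card (Q.map H.subtype) = 2 ^ 11 := by
    rw [card_map_of_injective H.subtype_injective, hQ]
  have hcase : p = 2 ∨ p = 3 ∨ p = 5 ∨ p = 13 := by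
    rcases (hp.dvd_mul.1 hpX) with h | h
    · rcases (hp.dvd_mul.1 h) with h | h
      · rcases (hp.dvd_mul.1 h) with h | h
        · exact Or.inl ((Nat.prime_dvd_prime_iff_eq hp Nat.prime_two).1 (hp.dvd_of_dvd_pow h))
        · exact Or.inr (Or.inl ((Nat.prime_dvd_prime_iff_eq hp Nat.prime_three).1 (hp.dvd_of_dvd_pow h)))
      · exact Or.inr (Or.inr (Or.inl ((Nat.prime_dvd_prime_iff_eq hp Nat.prime_five).1 (hp.dvd_of_dvd_pow h))))
    · exact Or.inr (Or.inr (Or.inr ((Nat.prime_dvd_prime_iff_eq hp (by norm_num)).1 h)))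
  rcases hcase with rfl | rfl | rfl | rfl
  · exact hne (T.two hPc (hNn P) hNm)
  · exact h3 hpH
  · exact hne (T.five hQc (hNn Q) hNm)
  · exact hne (T.thirteen hPc (hNn P) hNm)

end TC

end Cfsg.Agent.H518.PiB
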