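import Cfsg.Agent.H518.PiB.TitsHall
import Cfsg.Agent.CpAutTits.Row
import Cfsg.Agent.H71.Rad2Tits

/-!
# The Tits group, `l = 2`, `3 ∉ π` (helper518, S3876)

* `tc` : the centralisers (`TC`) of the Tits group;
* `solvable_of` : subgroups of order prime to three are solvable;
* `false_two_five` : no Hall π-subgroup if `2, 5 ∈ π`, `3 ∉ π`;
* `false_tits` : the case `l = 2` of the row of S3876, `3 ∉ π`.
-/

set_option autoImplicit false

namespace Cfsg.Agent.H518.PiB.Tits

open Subgroup Cfsg Cfsg.Agent.H469.PiBS Cfsg.Agent.H465.SporB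

universe u v

theorem TC.congr {X : Type u} {Y : Type v} [Group X] [Group Y] (h : TC X) (e : X ≃* Y) : TC Y where
  card := by
    rw [← h.card]
    exact (Nat.card_congr e.toEquiv).symm
  cent y hy := by
    have h1 := h.cent (e.symm y) (by rw [MulEquiv.orderOf_eq, hy])
    have h2 := Cfsg.Agent.CpAutTits.Ten.card_inf_equiv e (e.symm y) (e.symm y)
    rw [inf_idem, inf_idem, e.apply_symm_apply, h1] at h2
    exact h2
  ten y hy i hi hc := by
    have h1 := h.ten (e.symm y) (by rw [MulEquiv.orderOf_eq, hy]) (e.symm i) (by rw [MulEquiv.orderOf_eq, hi])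
      (by rw [← map_mul, hc, map_mul])
    have h2 := Cfsg.Agent.CpAutTits.Ten.card_inf_equiv e (e.symm y) (e.symm i)
    rw [e.apply_symm_apply, e.apply_symm_apply, h1] at h2
    exact h2

theorem tc_TT : TC ↥Cfsg.Agent.TitsK.TT :=
  ⟨Cfsg.Agent.CpAutTits.Row.out_TT.card, Cfsg.Agent.CpAutTits.Row.out_TT.cent, Cfsg.Agent.CpAutTits.Ten.facts.ten⟩

/-- centralisers in the Tits group -/
theorem tc {X : Type u} [Group X] (h : Lie.IsoTits X) : TC X := by
  obtain ⟨e⟩ := Cfsg.Agent.CpAutTits.Row.exists_equiv h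
  exact TC.congr tc_TT e.symm

section

variable {X : Type u} [Group X] [Finite X]

/-- subgroups of order prime to three are solvable -/
theorem solvable_of (T : TC X) {H : Subgroup X} (h3 : ¬ 3 ∣ Nat.card H) : Group.IsSolvable H := by
  by_contra hns
  obtain ⟨m, hm, hd⟩ := exists_szc hns h3
  have hdX : szc m ∣ 2 ^ 11 * 3 ^ 3 * 5 ^ 2 * 13 := by
    rw [← T.card]
    exact hd.trans (card_subgroup_dvd_card H)
  have h1 := le_of_szc_dvd (K := 12) (by norm_num) hdX
  obtain rfl | rfl : m = 1 ∨ m = 2 := by omega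
  · revert hdX
    norm_num [szc]
  · revert hdX
    norm_num [szc]

/-- **no Hall π-subgroup if `2, 5 ∈ π`, `3 ∉ π`** -/
theorem false_two_five (T : TC X) {π : Set ℕ} (h2 : 2 ∈ π) (h5 : 5 ∈ π) (h3 : 3 ∉ π) {H : Subgroup X}
    (hH : IsPiHall π H) : False := by
  have h3H : ¬ 3 ∣ Nat.card H := fun hd => h3 (hH.1 3 Nat.prime_three hd)
  have key : ∀ p : ℕ, p.Prime → p ∈ π → ∀ k, p ^ k ∣ Nat.card X → p ^ k ∣ Nat.card H := by
    intro p hp hpi k hk
    rw [← H.card_mul_index] at hk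
    exact (Nat.Coprime.pow_left _ ((Nat.Prime.coprime_iff_not_dvd hp).2 (hH.2 p hp hpi))).dvd_of_dvd_mul_right hk
  exact T.not_solvable (key 2 Nat.prime_two h2 11 (by rw [T.card]; norm_num))
    (key 5 Nat.prime_five h5 2 (by rw [T.card]; norm_num)) h3H (solvable_of T h3H)

end

/-- every involutory automorphism inverts an element of order five -/
theorem exists_five {K : Type u} [Group K] (h : Lie.IsoTits K) {x : MulAut K} (hx : orderOf x = 2) :
    ∃ g : K, orderOf g = 5 ∧ x g = g⁻¹ := by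
  have hc : center K = ⊥ := Cfsg.Agent.Omega.TwoF.TitsAut.center_iso h
  have hxx : x * x = 1 := by rw [← pow_two, ← hx, pow_orderOf_eq_one]
  have hfin : Finite K := Nat.finite_of_card_ne_zero (by rw [(tc h).card]; norm_num)
  obtain ⟨e⟩ := Cfsg.Agent.TitsK.nonempty_equiv h
  obtain ⟨k, rfl⟩ := Cfsg.Agent.H71.Rad2Tits.inner_of Cfsg.Agent.TitsK.tdata e x hxx
  have hinj := conj_injective (S := K) hc
  have hk : k * k = 1 := hinj (by rw [map_mul, hxx, map_one])
  have hk1 : k ≠ 1 := by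
    rintro rfl
    rw [map_one, orderOf_one] at hx
    omega
  obtain ⟨g, g1, g2, g3⟩ := Cfsg.Agent.H71.Rad2Tits.allInv_of Cfsg.Agent.TitsK.tdata
    (fun g hg h3 hz => Cfsg.Agent.TitsK.three_z hg h3 hz) (fun g hg h5 hd => Cfsg.Agent.TitsK.five_d hg h5 hd)
    (Cfsg.Agent.H71.Rad2Tits.invF h) e k hk hk1
  have : Fact (Nat.Prime 5) := ⟨Nat.prime_five⟩
  exact ⟨g, orderOf_eq_prime g1 g2, by rw [MulAut.conj_apply, g3]⟩

/-- **The Tits group, `l = 2`.** -/
theorem false_tits {S : Type u} [Group S] [Finite S] (h : Lie.IsoTits S) {π : Set ℕ} (h3 : 3 ∉ π)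
    {A : Subgroup (MulAut S)} {x : MulAut S} {l : ℕ} (hy : Hyp π A x l) (hl : l = 2) : False := by
  have hc : center S = ⊥ := Cfsg.Agent.Omega.TwoF.TitsAut.center_iso h
  obtain ⟨g, hg, hgx⟩ := exists_five h (hy.ord.trans hl)
  have h5 : 5 ∈ π := by
    refine hy.pi_orderOf hc g Nat.prime_five ?_
    have h1 : x g * g⁻¹ = (g ^ 2)⁻¹ := by rw [hgx, pow_two, mul_inv_rev]
    rw [h1, orderOf_inv, orderOf_pow, hg]
    norm_num
  obtain ⟨H, hH⟩ := hy.exists_hall
  exact false_two_five (tc h) (hl ▸ hy.lpi) h5 h3 hH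

end Cfsg.Agent.H518.PiB.Tits
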